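import Cfsg.Agent.Lib.NCA8.Basic

/-!
# Coprime action of an odd group on a 2-group: commutator calculus
-/

set_option autoImplicit false

namespace Cfsg.Agent.Lib.NCA8.Act

open Subgroup
open Cfsg.Agent.Lib.Coprime.Action Cfsg.Agent.Lib.NCA8.Basic
open scoped commutatorElement

universe u

variable {G : Type u} [Group G]

/-- `K` of odd order normalizes the 2-group `Y`. -/
structure OddAct (Y K : Subgroup G) : Prop where
  two : IsPGroup 2 Y
  odd : Odd (Nat.card K)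
  norm : K ≤ normalizer (Y : Set G)

theorem OddAct.mono {U Y K : Subgroup G} (h : OddAct Y K) (hU : U ≤ Y)
    (hK : K ≤ normalizer (U : Set G)) : OddAct U K :=
  ⟨h.two.to_le hU, h.odd, hK⟩

variable [Finite G]

theorem OddAct.cop {Y K : Subgroup G} (h : OddAct Y K) : (Nat.card K).Coprime (Nat.card Y) := by
  obtain ⟨k, hk⟩ := IsPGroup.iff_card.mp h.two
  rw [hk]
  exact Nat.Coprime.pow_right k (Nat.coprime_two_right.mpr h.odd)

theorem OddAct.solv {Y K : Subgroup G} (h : OddAct Y K) :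
    Group.IsSolvable K ∨ Group.IsSolvable Y := by
  haveI : Fact (Nat.Prime 2) := ⟨Nat.prime_two⟩
  right
  haveI := Cfsg.Agent.Lib.PGroups.Basic.isNilpotent_of_pGroup h.two
  infer_instance

theorem fixed_le_sq {Y K : Subgroup G} (h : OddAct Y K) (hc : ⁅Y, K⁆ = Y) {c : G} (hcY : c ∈ Y)
    (hcK : c ∈ centralizer (K : Set G)) : c ∈ Sq Y :=
  Cfsg.Agent.Lib.Coprime.SecQuot.fixed_mem_of_commutator_eq (T := Sq Y) (R := Y) (A := K)
    (self_le_normalizer_sq Y) (le_normalizer_sq h.norm) h.norm h.cop (commutator_le_sq Y) hc hcY hcK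

theorem mem_sq_of_fixed_mod {Y K : Subgroup G} (h : OddAct Y K) (hc : ⁅Y, K⁆ = Y) {z : G} (hz : z ∈ Y)
    (hk : ∀ k ∈ K, k * z * k⁻¹ * z⁻¹ ∈ Sq Y) : z ∈ Sq Y := by
  obtain ⟨c, hc1, hc2⟩ := exists_fixed_of_fixed_mod (Sq Y) h.norm h.cop h.solv (sq_le Y)
    (self_le_normalizer_sq Y) (le_normalizer_sq h.norm) hz hk
  have h3 := fixed_le_sq h hc hc1.1 hc1.2
  have e : z = c * (z⁻¹ * c)⁻¹ := by group
  rw [e]
  exact (Sq Y).mul_mem h3 ((Sq Y).inv_mem hc2)

omit [Finite G] in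
/-- Three subgroups: fixed points normalized by `Y = ⁅Y, K⁆` are centralized by `Y`. -/
theorem le_centralizer_of_fixed {Y K F : Subgroup G} (hc : ⁅Y, K⁆ = Y)
    (hFK : F ≤ centralizer (K : Set G)) (hYF : Y ≤ normalizer (F : Set G)) :
    F ≤ centralizer (Y : Set G) := by
  have h1 : ⁅⁅K, F⁆, Y⁆ = ⊥ := by
    have : ⁅K, F⁆ = ⊥ := by
      rw [commutator_comm]
      exact (commutator_eq_bot_iff_le_centralizer).mpr hFK
    rw [this]
    exact commutator_bot_left Y
  have h2 : ⁅⁅F, Y⁆, K⁆ = ⊥ := by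
    rw [commutator_eq_bot_iff_le_centralizer]
    exact (commutator_le_of_le_normalizer hYF).trans hFK
  have h3 := Subgroup.commutator_commutator_eq_bot_of_rotate h1 h2
  rw [hc, commutator_eq_bot_iff_le_centralizer] at h3
  exact le_centralizer_iff.mp h3

omit [Finite G] in
/-- The identity for the square of `y v⁻¹` when `v² = y²`. -/
theorem sq_mul_inv_eq {y v : G} (h : v ^ 2 = y ^ 2) : (y * v⁻¹) ^ 2 = ⁅y * v⁻¹ * y⁻¹, y⁆ := by
  have hv : v⁻¹ = v * (y ^ 2)⁻¹ := by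
    rw [← h, pow_two]; group
  calc (y * v⁻¹) ^ 2 = y * v⁻¹ * y * v⁻¹ := by rw [pow_two]; group
    _ = y * v⁻¹ * y * (v * (y ^ 2)⁻¹) := by rw [← hv]
    _ = ⁅y * v⁻¹ * y⁻¹, y⁆ := by rw [commutatorElement_def, pow_two]; group

/-- `{w ∈ Y : w² ∈ Y'}`. -/
def sqDer (Y : Subgroup G) : Subgroup G where
  carrier := {w | w ∈ Y ∧ w ^ 2 ∈ ⁅Y, Y⁆}
  one_mem' := ⟨Y.one_mem, by simp⟩
  mul_mem' := by
    rintro a b ⟨ha, ha2⟩ ⟨hb, hb2⟩
    refine ⟨Y.mul_mem ha hb, ?_⟩
    have e : (a * b) ^ 2 = a ^ 2 * ⁅a⁻¹, b⁆ * b ^ 2 := by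
      rw [commutatorElement_def, pow_two, pow_two, pow_two]; group
    rw [e]
    exact Subgroup.mul_mem _ (Subgroup.mul_mem _ ha2
      (commutator_mem_commutator (Y.inv_mem ha) hb)) hb2
  inv_mem' := by
    rintro a ⟨ha, ha2⟩
    refine ⟨Y.inv_mem ha, ?_⟩
    rw [inv_pow]
    exact Subgroup.inv_mem _ ha2

omit [Finite G] in
/-- The main trick: if `K` centralizes the squares of `Y = [Y,K]`, squares lie in `Y'`. -/
theorem sq_le_derived {Y K : Subgroup G} (hK : K ≤ normalizer (Y : Set G)) (hc : ⁅Y, K⁆ = Y)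
    (hF : Sq Y ≤ centralizer (K : Set G)) : Sq Y ≤ ⁅Y, Y⁆ := by
  have h1 : ⁅Y, K⁆ ≤ sqDer Y := by
    rw [commutator_le]
    intro y hy k hk
    have hy' : k * y * k⁻¹ ∈ Y := conj_mem_of_le_normalizer hK hk hy
    have hsq : (k * y * k⁻¹) ^ 2 = y ^ 2 := by
      have h2 : y ^ 2 ∈ centralizer (K : Set G) := hF (sq_mem hy)
      have h3 := mem_centralizer_iff.mp h2 k hk
      rw [pow_two (k * y * k⁻¹)]
      have e : k * y * k⁻¹ * (k * y * k⁻¹) = k * y ^ 2 * k⁻¹ := by rw [pow_two]; group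
      rw [e, h3]
      group
    have e : ⁅y, k⁆ = y * (k * y * k⁻¹)⁻¹ := by
      rw [commutatorElement_def]; group
    rw [e]
    refine ⟨Y.mul_mem hy (Y.inv_mem hy'), ?_⟩
    rw [sq_mul_inv_eq hsq]
    refine commutator_mem_commutator ?_ hy
    exact Y.mul_mem (Y.mul_mem hy (Y.inv_mem hy')) (Y.inv_mem hy)
  rw [hc] at h1
  rw [Sq, closure_le]
  rintro _ ⟨x, hx, rfl⟩
  exact (h1 hx).2

omit [Finite G] in
/-- Commutators have square one when squares are central. -/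
theorem comm_sq_eq_one {x y : G} (hxy : x ^ 2 * y = y * x ^ 2) (hc : ⁅x, y⁆ * x = x * ⁅x, y⁆) :
    ⁅x, y⁆ ^ 2 = 1 := by
  set c := ⁅x, y⁆ with hcdef
  have h1 : c = x * c * x⁻¹ := by rw [← hc]; group
  have h2 : y⁻¹ * (x * x) * y = x * x := by
    rw [pow_two] at hxy
    rw [mul_assoc, hxy]; group
  calc c ^ 2 = c * (x * c * x⁻¹) := by rw [← h1, pow_two]
    _ = x * y * x⁻¹ * (y⁻¹ * (x * x) * y) * x⁻¹ * y⁻¹ * x⁻¹ := by
      rw [hcdef, commutatorElement_def]; group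
    _ = 1 := by rw [h2]; group

omit [Finite G] in
/-- When all squares of `Y` are central in `Y`, the derived subgroup has exponent 2. -/
theorem derived_sq_eq_one {Y : Subgroup G} (hcen : Sq Y ≤ centralizer (Y : Set G)) :
    ∀ c ∈ ⁅Y, Y⁆, c ^ 2 = 1 := by
  have hder : ⁅Y, Y⁆ ≤ centralizer (Y : Set G) := (commutator_le_sq Y).trans hcen
  intro c hc
  rw [Subgroup.commutator_def] at hc
  induction hc using closure_induction with
  | mem c hc =>
    obtain ⟨x, hx, y, hy, rfl⟩ := hc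
    apply comm_sq_eq_one
    · exact (mem_centralizer_iff.mp (hcen (sq_mem hx)) y hy).symm
    · exact (mem_centralizer_iff.mp (hder (commutator_mem_commutator hx hy)) x hx).symm
  | one => simp
  | mul a b ha hb iha ihb =>
    have ha' : a ∈ ⁅Y, Y⁆ := by rw [Subgroup.commutator_def]; exact ha
    have hb' : b ∈ ⁅Y, Y⁆ := by rw [Subgroup.commutator_def]; exact hb
    have hbY : b ∈ Y := (commutator_le_sq Y |>.trans (sq_le Y)) hb'
    have hab : Commute a b := by
      exact (mem_centralizer_iff.mp (hder ha') b hbY).symm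
    rw [hab.mul_pow, iha, ihb, one_mul]
  | inv a _ iha => rw [inv_pow, iha, inv_one]

/-- A subgroup of order two, or generally of small card, misses some element. -/
theorem exists_not_mem_of_card_lt {H Y : Subgroup G} (h : Nat.card H < Nat.card Y) :
    ∃ v ∈ Y, v ∉ H := by
  by_contra hall
  push Not at hall
  have hle : Y ≤ H := hall
  exact absurd (Subgroup.card_le_of_le hle) (not_le.mpr h)

/-- Strict containment at least doubles the order. -/
theorem two_mul_le_of_lt {H B : Subgroup G} (h : H < B) : 2 * Nat.card H ≤ Nat.card B := by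
  have h1 : Nat.card H ∣ Nat.card B := Subgroup.card_dvd_of_le h.le
  obtain ⟨r, hr⟩ := h1
  have h2 := Cfsg.Agent.Lib.PGroups.Basic.card_lt_of_lt h
  have hpos : 0 < Nat.card H := Nat.card_pos
  have hr2 : 2 ≤ r := by
    by_contra hlt
    push Not at hlt
    interval_cases r
    · simp at hr; omega
    · omega
  rw [hr]
  nlinarith

omit [Finite G] in
/-- The join of two subgroups that pairwise commute and are abelian is abelian. -/
theorem comm_of_sup {H₁ H₂ : Subgroup G} (h1 : ∀ a ∈ H₁, ∀ b ∈ H₁, a * b = b * a)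
    (h2 : ∀ a ∈ H₂, ∀ b ∈ H₂, a * b = b * a) (h12 : ∀ a ∈ H₁, ∀ b ∈ H₂, a * b = b * a) :
    ∀ a ∈ H₁ ⊔ H₂, ∀ b ∈ H₁ ⊔ H₂, a * b = b * a := by
  have s1 : H₁ ⊔ H₂ ≤ centralizer (H₁ : Set G) := by
    refine sup_le ?_ ?_
    · intro a ha
      rw [mem_centralizer_iff]
      intro b hb
      exact h1 b hb a ha
    · intro a ha
      rw [mem_centralizer_iff]
      intro b hb
      exact h12 b hb a ha
  have s2 : H₁ ⊔ H₂ ≤ centralizer (H₂ : Set G) := by
    refine sup_le ?_ ?_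
    · intro a ha
      rw [mem_centralizer_iff]
      intro b hb
      exact (h12 a ha b hb).symm
    · intro a ha
      rw [mem_centralizer_iff]
      intro b hb
      exact h2 b hb a ha
  have s3 : H₁ ⊔ H₂ ≤ centralizer ((H₁ ⊔ H₂ : Subgroup G) : Set G) := by
    refine sup_le ?_ ?_
    · intro a ha
      rw [mem_centralizer_iff]
      intro b hb
      exact (mem_centralizer_iff.mp (s1 hb) a ha).symm
    · intro a ha
      rw [mem_centralizer_iff]
      intro b hb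
      exact (mem_centralizer_iff.mp (s2 hb) a ha).symm
  intro a ha b hb
  exact mem_centralizer_iff.mp (s3 hb) a ha

omit [Finite G] in
/-- Membership in `U ⊔ ⟨t⟩` with `t² ∈ U`. -/
theorem mem_sup_zpowers {U : Subgroup G} {t w : G} (ht : t ∈ normalizer (U : Set G))
    (ht2 : t ^ 2 ∈ U) (hw : w ∈ zpowers t ⊔ U) : w ∈ U ∨ t⁻¹ * w ∈ U := by
  have hn : zpowers t ≤ normalizer (U : Set G) := by rwa [zpowers_le]
  rw [sup_comm] at hw
  obtain ⟨f, hf, a, ha, rfl⟩ := exists_mul_of_mem_sup hn hw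
  obtain ⟨n, rfl⟩ := ha
  have hz2 : t ^ (2 : ℤ) ∈ U := by exact_mod_cast ht2
  obtain ⟨m, rfl | rfl⟩ := Int.even_or_odd' n
  · left
    show f * t ^ (2 * m) ∈ U
    rw [zpow_mul]
    exact U.mul_mem hf (U.zpow_mem hz2 m)
  · right
    show t⁻¹ * (f * t ^ (2 * m + 1)) ∈ U
    rw [zpow_add, zpow_mul, zpow_one]
    have e : t⁻¹ * (f * ((t ^ (2 : ℤ)) ^ m * t)) = t⁻¹ * (f * (t ^ (2 : ℤ)) ^ m) * t := by group
    rw [e]
    exact inv_conj_mem_of_le_normalizer hn (mem_zpowers t) (U.mul_mem hf (U.zpow_mem hz2 m))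

end Cfsg.Agent.Lib.NCA8.Act
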