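import Cfsg.Agent.Lib.Coprime.SecQuot
import Cfsg.Agent.Lib.PGroups.Basic
import Cfsg.Agent.Lib.QuadAct.Basic

/-!
# Subgroups without a noncyclic abelian subgroup of order 8: basic tools

`NCA Y`: the subgroup `Y` contains a noncyclic abelian subgroup of order 8.
`Sq Y`: the subgroup generated by the squares of elements of `Y`.
-/

set_option autoImplicit false

namespace Cfsg.Agent.Lib.NCA8.Basic

open Subgroup
open Cfsg.Agent.Lib.Coprime.Action
open scoped commutatorElement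

universe u

variable {G : Type u} [Group G]

/-- `Y` contains a noncyclic abelian subgroup of order 8. -/
def NCA (Y : Subgroup G) : Prop :=
  ∃ A : Subgroup G, A ≤ Y ∧ IsMulCommutative ↥A ∧ ¬ IsCyclic ↥A ∧ Nat.card ↥A = 8

theorem NCA.mono {Y Y' : Subgroup G} (h : Y ≤ Y') (hY : NCA Y) : NCA Y' := by
  obtain ⟨A, hA, h1, h2, h3⟩ := hY
  exact ⟨A, hA.trans h, h1, h2, h3⟩

/-- The subgroup generated by squares. -/
def Sq (Y : Subgroup G) : Subgroup G := closure {g | ∃ x ∈ Y, x ^ 2 = g}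

theorem sq_mem {Y : Subgroup G} {x : G} (hx : x ∈ Y) : x ^ 2 ∈ Sq Y :=
  subset_closure ⟨x, hx, rfl⟩

theorem sq_le (Y : Subgroup G) : Sq Y ≤ Y := by
  rw [Sq, closure_le]
  rintro _ ⟨x, hx, rfl⟩
  exact Y.pow_mem hx 2

theorem sq_mono {Y Y' : Subgroup G} (h : Y ≤ Y') : Sq Y ≤ Sq Y' := by
  rw [Sq, closure_le]
  rintro _ ⟨x, hx, rfl⟩
  exact sq_mem (h hx)

theorem comm_mem_sq {Y : Subgroup G} {x y : G} (hx : x ∈ Y) (hy : y ∈ Y) : ⁅x, y⁆ ∈ Sq Y := by
  have e : ⁅x, y⁆ = (x * y) ^ 2 * (y⁻¹ * x⁻¹ * y) ^ 2 * (y⁻¹) ^ 2 := by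
    rw [commutatorElement_def, pow_two, pow_two, pow_two]
    group
  rw [e]
  refine (Sq Y).mul_mem ((Sq Y).mul_mem (sq_mem (Y.mul_mem hx hy)) (sq_mem ?_)) (sq_mem (Y.inv_mem hy))
  exact Y.mul_mem (Y.mul_mem (Y.inv_mem hy) (Y.inv_mem hx)) hy

theorem commutator_le_sq (Y : Subgroup G) : ⁅Y, Y⁆ ≤ Sq Y := by
  rw [commutator_le]
  intro x hx y hy
  exact comm_mem_sq hx hy

theorem le_normalizer_sq {T Y : Subgroup G} (h : T ≤ normalizer (Y : Set G)) :
    T ≤ normalizer ((Sq Y : Subgroup G) : Set G) := by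
  rw [le_normalizer_iff]
  intro t ht g hg
  rw [Sq] at hg
  induction hg using closure_induction with
  | mem g hg =>
    obtain ⟨x, hx, rfl⟩ := hg
    have e : t * x ^ 2 * t⁻¹ = (t * x * t⁻¹) ^ 2 := by
      rw [pow_two, pow_two]; group
    rw [e]
    exact sq_mem (conj_mem_of_le_normalizer h ht hx)
  | one => simp
  | mul a b _ _ iha ihb =>
    have e : t * (a * b) * t⁻¹ = (t * a * t⁻¹) * (t * b * t⁻¹) := by group
    rw [e]
    exact Subgroup.mul_mem _ iha ihb
  | inv a _ iha =>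
    have e : t * a⁻¹ * t⁻¹ = (t * a * t⁻¹)⁻¹ := by group
    rw [e]
    exact Subgroup.inv_mem _ iha

theorem self_le_normalizer_sq (Y : Subgroup G) : Y ≤ normalizer ((Sq Y : Subgroup G) : Set G) :=
  le_normalizer_sq le_normalizer

theorem mem_zpowers_of_sq {u x : G} (hu : u ^ 2 = 1) (hx : x ∈ zpowers u) : x = 1 ∨ x = u := by
  obtain ⟨k, rfl⟩ := hx
  obtain ⟨m, rfl | rfl⟩ := Int.even_or_odd' k
  · left
    show u ^ (2 * m) = 1
    rw [zpow_mul]
    have : u ^ (2 : ℤ) = 1 := by exact_mod_cast hu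
    rw [this, one_zpow]
  · right
    show u ^ (2 * m + 1) = u
    rw [zpow_add, zpow_mul]
    have : u ^ (2 : ℤ) = 1 := by exact_mod_cast hu
    rw [this, one_zpow, one_mul, zpow_one]

/-- A group with two distinct involutions is not cyclic. -/
theorem not_isCyclic_of_two_invol {E : Type*} [Group E] [Finite E] {u v : E} (hu2 : u ^ 2 = 1)
    (hv2 : v ^ 2 = 1) (hu1 : u ≠ 1) (hv1 : v ≠ 1) (huv : u ≠ v) : ¬ IsCyclic E := by
  classical
  intro hc
  letI := Fintype.ofFinite E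
  have h1 := IsCyclic.card_pow_eq_one_le (α := E) (n := 2) (by norm_num)
  have h2 : ({1, u, v} : Finset E) ⊆ Finset.univ.filter (fun a : E => a ^ 2 = 1) := by
    intro a ha
    simp only [Finset.mem_insert, Finset.mem_singleton] at ha
    simp only [Finset.mem_filter, Finset.mem_univ, true_and]
    rcases ha with rfl | rfl | rfl
    · exact one_pow 2
    · exact hu2
    · exact hv2
  have h3 : ({1, u, v} : Finset E).card = 3 := by
    rw [Finset.card_insert_of_notMem, Finset.card_pair huv]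
    simp only [Finset.mem_insert, Finset.mem_singleton, not_or]
    exact ⟨hu1.symm, hv1.symm⟩
  have h4 := Finset.card_le_card h2
  rw [h3] at h4
  omega

/-- Card of the join of two subgroups generated by two commuting involutions. -/
theorem card_sup_zpowers_two {u v : G} [Finite G] (huv' : u * v = v * u) (hu2 : u ^ 2 = 1)
    (hv2 : v ^ 2 = 1) (hu1 : u ≠ 1) (hv1 : v ≠ 1) (huv : u ≠ v) :
    Nat.card (zpowers u ⊔ zpowers v : Subgroup G) = 4 := by
  have hn : zpowers u ≤ normalizer ((zpowers v : Subgroup G) : Set G) := by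
    rw [le_normalizer_iff]
    intro t ht g hg
    have htv : Commute t v := by
      obtain ⟨k, rfl⟩ := ht
      exact (show Commute u v from huv').zpow_left k
    have e : t * g * t⁻¹ = g := by
      obtain ⟨k, rfl⟩ := hg
      have : Commute t (v ^ k) := htv.zpow_right k
      show t * v ^ k * t⁻¹ = v ^ k
      rw [this.eq]; group
    rwa [e]
  have h := Cfsg.Agent.Lib.QuadAct.Basic.card_sup_mul_card_inf_of_le_normalizer _ _ hn
  have hinf : zpowers u ⊓ zpowers v = ⊥ := by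
    rw [eq_bot_iff]
    rintro x ⟨hx1, hx2⟩
    rw [mem_bot]
    rcases mem_zpowers_of_sq hu2 hx1 with h1 | h1
    · exact h1
    · rcases mem_zpowers_of_sq hv2 hx2 with h2 | h2
      · exact h2
      · exact absurd (h1.symm.trans h2) huv
  have ou : orderOf u = 2 := orderOf_eq_prime hu2 hu1
  have ov : orderOf v = 2 := orderOf_eq_prime hv2 hv1
  rw [hinf, Nat.card_zpowers, Nat.card_zpowers, ou, ov] at h
  simpa using h

/-- **L1'**: an abelian 2-group of order at least 8 with two distinct involutions. -/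
theorem nca_of_two_invol [Finite G] {B : Subgroup G} (hB : ∀ x ∈ B, ∀ y ∈ B, x * y = y * x)
    (hB2 : IsPGroup 2 B) (h8 : 8 ≤ Nat.card B) {u v : G} (hu : u ∈ B) (hv : v ∈ B)
    (hu2 : u ^ 2 = 1) (hv2 : v ^ 2 = 1) (hu1 : u ≠ 1) (hv1 : v ≠ 1) (huv : u ≠ v) : NCA B := by
  haveI : Fact (Nat.Prime 2) := ⟨Nat.prime_two⟩
  set V : Subgroup G := zpowers u ⊔ zpowers v with hV
  have hVB : V ≤ B := sup_le (by rwa [zpowers_le]) (by rwa [zpowers_le])
  have hV4 : Nat.card V = 4 := card_sup_zpowers_two (hB u hu v hv) hu2 hv2 hu1 hv1 huv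
  have hd : 2 ^ 3 ∣ Nat.card B := by
    obtain ⟨n, hn⟩ := IsPGroup.iff_card.mp hB2
    rw [hn]
    apply pow_dvd_pow
    by_contra hlt
    push Not at hlt
    have : 2 ^ n ≤ 2 ^ 2 := Nat.pow_le_pow_right (by norm_num) (by omega)
    rw [hn] at h8
    omega
  have hV' : Nat.card (V.subgroupOf B) = 2 ^ 2 := by
    rw [Nat.card_congr (Subgroup.subgroupOfEquivOfLe hVB).toEquiv, hV4]; norm_num
  obtain ⟨K, hK8, hVK⟩ := Sylow.exists_subgroup_card_pow_prime_le 2 hd (V.subgroupOf B) hV' (by norm_num)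
  refine ⟨K.map B.subtype, map_subtype_le K, ?_, ?_, ?_⟩
  · refine ⟨⟨fun a b => Subtype.ext ?_⟩⟩
    obtain ⟨a, ha⟩ := a
    obtain ⟨b, hb⟩ := b
    obtain ⟨a', -, rfl⟩ := ha
    obtain ⟨b', -, rfl⟩ := hb
    exact hB _ a'.2 _ b'.2
  · have huV : u ∈ V := (le_sup_left : zpowers u ≤ V) (mem_zpowers u)
    have hvV : v ∈ V := (le_sup_right : zpowers v ≤ V) (mem_zpowers v)
    have huK : (⟨u, hu⟩ : B) ∈ K := hVK (by simpa [mem_subgroupOf] using huV)
    have hvK : (⟨v, hv⟩ : B) ∈ K := hVK (by simpa [mem_subgroupOf] using hvV)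
    have hu' : u ∈ K.map B.subtype := ⟨⟨u, hu⟩, huK, rfl⟩
    have hv' : v ∈ K.map B.subtype := ⟨⟨v, hv⟩, hvK, rfl⟩
    refine not_isCyclic_of_two_invol (u := (⟨u, hu'⟩ : K.map B.subtype)) (v := ⟨v, hv'⟩)
      (Subtype.ext hu2) (Subtype.ext hv2) (fun h => hu1 (congrArg Subtype.val h))
      (fun h => hv1 (congrArg Subtype.val h)) (fun h => huv (congrArg Subtype.val h))
  · rw [Subgroup.card_map_of_injective B.subtype_injective, hK8]; norm_num

/-- Every proper subgroup `U` of a finite 2-group `Y` misses an element with square in `U`. -/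
theorem exists_pow_not_mem_sq_mem [Finite G] {Y U : Subgroup G} (hY : IsPGroup 2 Y) {t : G}
    (ht : t ∈ Y) (htU : t ∉ U) : ∃ m : ℕ, t ^ m ∉ U ∧ (t ^ m) ^ 2 ∈ U := by
  classical
  obtain ⟨k, hk⟩ := hY ⟨t, ht⟩
  have hk' : t ^ (2 ^ k) = 1 := by simpa using congrArg Subtype.val hk
  have hex : ∃ n : ℕ, t ^ (2 ^ n) ∈ U := ⟨k, by rw [hk']; exact U.one_mem⟩
  have hmin : ∀ m, m < Nat.find hex → t ^ (2 ^ m) ∉ U := fun m hm => Nat.find_min hex hm
  have hspec := Nat.find_spec hex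
  set n := Nat.find hex with hn
  have hn0 : n ≠ 0 := by
    intro h0
    rw [h0] at hspec
    simp only [pow_zero, pow_one] at hspec
    exact htU hspec
  refine ⟨2 ^ (n - 1), hmin _ (by omega), ?_⟩
  rw [← pow_mul]
  have : 2 ^ (n - 1) * 2 = 2 ^ n := by
    rw [← pow_succ]; congr 1; omega
  rwa [this]

/-- Bound on the join of `U` and a `t` with `t² ∈ U`. -/
theorem card_sup_zpowers_eq [Finite G] {U : Subgroup G} {t : G} (ht : t ∈ normalizer (U : Set G))
    (htU : t ∉ U) (ht2 : t ^ 2 ∈ U) :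
    Nat.card (zpowers t ⊔ U : Subgroup G) = 2 * Nat.card U := by
  have hn : zpowers t ≤ normalizer (U : Set G) := by rwa [zpowers_le]
  have h := Cfsg.Agent.Lib.QuadAct.Basic.card_sup_mul_card_inf_of_le_normalizer _ _ hn
  -- the intersection has index two in `⟨t⟩`
  have hle : zpowers (t ^ 2) ≤ zpowers t ⊓ U := by
    rw [zpowers_le]
    exact ⟨pow_mem (mem_zpowers t) 2, ht2⟩
  have hd : Nat.card (zpowers (t ^ 2)) ∣ Nat.card (zpowers t ⊓ U : Subgroup G) :=
    Subgroup.card_dvd_of_le hle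
  have hd2 : Nat.card (zpowers t ⊓ U : Subgroup G) ∣ Nat.card (zpowers t) :=
    Subgroup.card_dvd_of_le inf_le_left
  have hne : Nat.card (zpowers t ⊓ U : Subgroup G) ≠ Nat.card (zpowers t) := by
    intro he
    have h3 : zpowers t ⊓ U = zpowers t :=
      Subgroup.eq_of_le_of_card_ge inf_le_left (by rw [he])
    apply htU
    have : t ∈ zpowers t ⊓ U := by rw [h3]; exact mem_zpowers t
    exact this.2
  have ho : 0 < orderOf t := orderOf_pos t
  rw [Nat.card_zpowers] at hd hd2 hne h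
  rw [orderOf_pow] at hd
  set c := Nat.card (zpowers t ⊓ U : Subgroup G) with hc
  have hcpos : 0 < c := Nat.card_pos
  obtain ⟨a, hab⟩ := hd2
  obtain ⟨b, hb⟩ := hd
  have hg3 : (orderOf t).gcd 2 = 1 ∨ (orderOf t).gcd 2 = 2 :=
    (Nat.dvd_prime Nat.prime_two).mp (Nat.gcd_dvd_right _ _)
  have h2 : orderOf t = 2 * c := by
    rcases hg3 with h3 | h3
    · rw [h3, Nat.div_one] at hb
      exact absurd (Nat.dvd_antisymm ⟨a, hab⟩ ⟨b, hb⟩) hne
    · rw [h3] at hb
      have h2o : 2 ∣ orderOf t := by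
        rw [← h3]; exact Nat.gcd_dvd_left _ _
      obtain ⟨o, ho'⟩ := h2o
      rw [ho', Nat.mul_div_cancel_left _ (by norm_num)] at hb
      have hopos : 0 < o := by omega
      rw [hb] at hab
      have hba : b * a = 2 := by
        have : o * (b * a) = o * 2 := by nlinarith
        exact Nat.eq_of_mul_eq_mul_left hopos this
      have hb' : b = 1 ∨ b = 2 := (Nat.dvd_prime Nat.prime_two).mp ⟨a, hba.symm⟩
      rcases hb' with rfl | rfl
      · rw [ho', hb]; ring
      · exfalso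
        apply hne
        rw [hb, ho']; ring
  have hUpos : 0 < Nat.card U := Nat.card_pos
  have h3 : Nat.card (zpowers t ⊔ U : Subgroup G) * c = 2 * c * Nat.card U := by
    rw [h, h2]
  have : Nat.card (zpowers t ⊔ U : Subgroup G) * c = (2 * Nat.card U) * c := by
    rw [h3]; ring
  exact Nat.eq_of_mul_eq_mul_right hcpos this

/-- In a nilpotent group `⁅H, ⊤⁆ ≠ H` for `H ≠ ⊥`. -/
theorem commutator_top_ne_self {T : Type*} [Group T] [Group.IsNilpotent T] {H : Subgroup T}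
    (hH : H ≠ ⊥) : ⁅H, (⊤ : Subgroup T)⁆ ≠ H := by
  intro h
  obtain ⟨n, hn⟩ := Subgroup.nilpotent_iff_lowerCentralSeries.mp (inferInstance : Group.IsNilpotent T)
  have hall : ∀ m, H ≤ (⊤ : Subgroup T).lowerCentralSeries m := by
    intro m
    induction m with
    | zero => exact le_top
    | succ m ih =>
      rw [← h, Subgroup.lowerCentralSeries_succ]
      exact Subgroup.commutator_mono ih le_rfl
  apply hH
  rw [eq_bot_iff, ← hn]
  exact hall n

/-- `⁅U, T⁆ ≠ U` for a nontrivial `U ≤ T` in a finite 2-group `T`. -/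
theorem comm_ne_self [Finite G] {U T : Subgroup G} (hT : IsPGroup 2 T) (hUT : U ≤ T) (hU : U ≠ ⊥) :
    ⁅U, T⁆ ≠ U := by
  haveI : Fact (Nat.Prime 2) := ⟨Nat.prime_two⟩
  haveI : Group.IsNilpotent T := Cfsg.Agent.Lib.PGroups.Basic.isNilpotent_of_pGroup hT
  intro h
  have hU' : U.subgroupOf T ≠ ⊥ := by
    intro h0
    apply hU
    rw [eq_bot_iff]
    intro x hx
    have : (⟨x, hUT hx⟩ : T) ∈ U.subgroupOf T := by simpa [mem_subgroupOf] using hx
    rw [h0, mem_bot] at this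
    simpa using congrArg Subtype.val this
  apply commutator_top_ne_self hU'
  apply Subgroup.map_injective T.subtype_injective
  rw [Subgroup.map_commutator, Subgroup.map_subgroupOf_eq_of_le hUT, ← MonoidHom.range_eq_map,
    Subgroup.range_subtype, h]

/-- The squares of a nontrivial 2-group do not generate it. -/
theorem sq_ne_self [Finite G] {Y : Subgroup G} (hY : IsPGroup 2 Y) (hY1 : Y ≠ ⊥) : Sq Y ≠ Y := by
  haveI : Fact (Nat.Prime 2) := ⟨Nat.prime_two⟩
  intro h
  haveI : Nontrivial Y := by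
    rw [Subgroup.nontrivial_iff_ne_bot]
    exact hY1
  obtain ⟨M, hM⟩ : ∃ M : Subgroup Y, IsCoatom M := by
    rcases eq_top_or_exists_le_coatom (⊥ : Subgroup Y) with h0 | ⟨M, hM, -⟩
    · exact absurd h0 bot_ne_top
    · exact ⟨M, hM⟩
  have hsq : ∀ x : Y, x ^ 2 ∈ M := fun x =>
    frattini_le_coatom hM (Cfsg.Agent.Lib.PGroups.Basic.pow_mem_frattini hY x)
  have hle : Sq Y ≤ M.map Y.subtype := by
    rw [Sq, closure_le]
    rintro _ ⟨x, hx, rfl⟩
    exact ⟨⟨x, hx⟩ ^ 2, hsq _, rfl⟩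
  apply hM.1
  rw [eq_top_iff]
  intro x _
  have hx : (x : G) ∈ M.map Y.subtype := hle (by rw [h]; exact x.2)
  obtain ⟨m, hm, he⟩ := hx
  have : m = x := Subtype.ext he
  rwa [← this]

theorem sq_lt [Finite G] {Y : Subgroup G} (hY : IsPGroup 2 Y) (hY1 : Y ≠ ⊥) : Sq Y < Y :=
  lt_of_le_of_ne (sq_le Y) (sq_ne_self hY hY1)

end Cfsg.Agent.Lib.NCA8.Basic
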