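import Cfsg.Agent.Lib.NCA8.Q8

/-!
# Minimal action of an odd group on a 2-group without `NCA`: `V₄` or `Q₈`
-/

set_option autoImplicit false

namespace Cfsg.Agent.Lib.NCA8.MinAct

open Subgroup
open Cfsg.Agent.Lib.Coprime.Action Cfsg.Agent.Lib.NCA8.Basic Cfsg.Agent.Lib.NCA8.Act
  Cfsg.Agent.Lib.NCA8.Q8
open scoped commutatorElement

universe u

variable {G : Type u} [Group G]

/-- Minimal action. -/
structure IsMinAct (Y K : Subgroup G) : Prop extends OddAct Y K where
  comm : ⁅Y, K⁆ = Y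
  ne : Y ≠ ⊥
  min : ∀ U ≤ Y, U ≠ Y → K ≤ normalizer (U : Set G) → U ≤ centralizer (K : Set G)

theorem le_normalizer_inf {T A B : Subgroup G} (hA : T ≤ normalizer (A : Set G))
    (hB : T ≤ normalizer (B : Set G)) : T ≤ normalizer ((A ⊓ B : Subgroup G) : Set G) := by
  rw [le_normalizer_iff]
  intro t ht x hx
  exact ⟨conj_mem_of_le_normalizer hA ht hx.1, conj_mem_of_le_normalizer hB ht hx.2⟩

theorem le_normalizer_centralizer {T A : Subgroup G} (hA : T ≤ normalizer (A : Set G)) :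
    T ≤ normalizer ((centralizer (A : Set G) : Subgroup G) : Set G) := by
  rw [le_normalizer_iff]
  intro t ht x hx
  rw [mem_centralizer_iff]
  intro a ha
  have h1 := mem_centralizer_iff.mp hx _ (inv_conj_mem_of_le_normalizer hA ht ha)
  calc a * (t * x * t⁻¹) = t * ((t⁻¹ * a * t) * x) * t⁻¹ := by group
    _ = t * (x * (t⁻¹ * a * t)) * t⁻¹ := by rw [h1]
    _ = t * x * t⁻¹ * a := by group

theorem normalizer_of_derived_le {U Y : Subgroup G} (hUY : U ≤ Y) (hd : ⁅Y, Y⁆ ≤ U) :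
    Y ≤ normalizer (U : Set G) := by
  rw [le_normalizer_iff]
  intro t ht u hu
  have e : t * u * t⁻¹ = ⁅t, u⁆ * u := by
    rw [commutatorElement_def]; group
  rw [e]
  exact U.mul_mem (hd (commutator_mem_commutator ht (hUY hu))) hu

variable [Finite G]

section

variable {Y K : Subgroup G} (h : IsMinAct Y K)
include h

theorem IsMinAct.sq_fixed : Sq Y ≤ centralizer (K : Set G) :=
  h.min (Sq Y) (sq_le Y) (sq_ne_self h.two h.ne) (le_normalizer_sq h.norm)

theorem IsMinAct.sq_central : Sq Y ≤ centralizer (Y : Set G) :=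
  le_centralizer_of_fixed h.comm h.sq_fixed (self_le_normalizer_sq Y)

theorem IsMinAct.sq_eq_derived : Sq Y = ⁅Y, Y⁆ :=
  le_antisymm (sq_le_derived h.norm h.comm h.sq_fixed) (commutator_le_sq Y)

theorem IsMinAct.sq_invol {c : G} (hc : c ∈ Sq Y) : c ^ 2 = 1 := by
  apply derived_sq_eq_one h.sq_central
  rwa [← h.sq_eq_derived]

theorem IsMinAct.conj_fix {f k : G} (hf : f ∈ Sq Y) (hk : k ∈ K) : k * f * k⁻¹ = f := by
  have := mem_centralizer_iff.mp (h.sq_fixed hf) k hk
  rw [this]; group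

/-- The abelian case. -/
theorem IsMinAct.v4 (hn : ¬ NCA Y) (hF : Sq Y = ⊥) : IsV4 Y := by
  have hsq : ∀ y ∈ Y, y ^ 2 = 1 := by
    intro y hy
    have := sq_mem hy
    rwa [hF, mem_bot] at this
  have hcomm : ∀ x ∈ Y, ∀ y ∈ Y, x * y = y * x := by
    intro x hx y hy
    have := comm_mem_sq hx hy
    rw [hF, mem_bot] at this
    exact commutatorElement_eq_one_iff_mul_comm.mp this
  refine ⟨?_, hsq, hcomm⟩
  obtain ⟨n, hn2⟩ := IsPGroup.iff_card.mp h.two
  have hn3 : n < 3 := by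
    by_contra hge
    push Not at hge
    apply hn
    have h8 : 8 ≤ Nat.card Y := by
      rw [hn2]
      calc 8 = 2 ^ 3 := by norm_num
        _ ≤ 2 ^ n := Nat.pow_le_pow_right (by norm_num) hge
    obtain ⟨u, hu, v, hv, hu1, hv1, huv⟩ := exists_two_of_card (by omega) hsq
    exact nca_of_two_invol hcomm h.two h8 hu hv (hsq u hu) (hsq v hv) hu1 hv1 huv
  interval_cases n
  · exfalso
    apply h.ne
    rw [pow_zero] at hn2
    exact (Subgroup.card_eq_one).mp hn2 
  · exfalso
    apply h.ne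
    rw [← h.comm, eq_bot_iff, commutator_le]
    intro y hy k hk
    rw [mem_bot, commutatorElement_eq_one_iff_mul_comm]
    by_cases hy1 : y = 1
    · rw [hy1]; group
    have hu := (Nat.card_eq_two_iff' (1 : Y)).mp (by simpa using hn2)
    have hy' : k * y * k⁻¹ ∈ Y := conj_mem_of_le_normalizer h.norm hk hy
    have hne : (⟨y, hy⟩ : Y) ≠ 1 := fun he => hy1 (congrArg Subtype.val he)
    have hne' : (⟨k * y * k⁻¹, hy'⟩ : Y) ≠ 1 := by
      intro he
      apply hy1
      have : k * y * k⁻¹ = 1 := congrArg Subtype.val he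
      have h2 : y = k⁻¹ * (k * y * k⁻¹) * k := by group
      rw [h2, this]; group
    have h3 := hu.unique hne' hne
    have h4 : k * y * k⁻¹ = y := congrArg Subtype.val h3
    exact (mul_inv_eq_iff_eq_mul.mp h4).symm
  · simpa using hn2

/-- The hom `g ↦ ⁅x, g⁆`. -/
def commHom {Y F : Subgroup G} (hcen : F ≤ centralizer (Y : Set G)) (hd : ∀ a ∈ Y, ∀ b ∈ Y, ⁅a, b⁆ ∈ F)
    (x : Y) : Y →* F :=
  MonoidHom.mk' (fun g => ⟨⁅(x : G), (g : G)⁆, hd _ x.2 _ g.2⟩) (fun a b => Subtype.ext (by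
    have h1 : (a : G) * ⁅(x : G), (b : G)⁆ * (a : G)⁻¹ = ⁅(x : G), (b : G)⁆ := by
      have := mem_centralizer_iff.mp (hcen (hd _ x.2 _ b.2)) (a : G) a.2
      rw [this]; group
    show ⁅(x : G), ((a * b : Y) : G)⁆ = ⁅(x : G), (a : G)⁆ * ⁅(x : G), (b : G)⁆
    rw [← h1]
    simp only [commutatorElement_def, Subgroup.coe_mul]
    group))

/-- The nonabelian case, first part: `Z = F`, `|F| = 2`. -/
theorem IsMinAct.card_sq (hn : ¬ NCA Y) (hF : Sq Y ≠ ⊥) : Nat.card (Sq Y) = 2 := by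
  have hFlt : Sq Y < Y := sq_lt h.two h.ne
  have hsqF : ∀ y ∈ Sq Y, y ^ 2 = 1 := fun y hy => h.sq_invol hy
  have hcomF : ∀ x ∈ Sq Y, ∀ y ∈ Sq Y, x * y = y * x := fun x hx y hy =>
    mem_centralizer_iff.mp (h.sq_central hy) x (sq_le Y hx)
  obtain ⟨n, hn2⟩ := IsPGroup.iff_card.mp (h.two.to_le (sq_le Y))
  by_contra hne
  have hge : 4 ≤ Nat.card (Sq Y) := by
    rw [hn2]
    have hn0 : n ≠ 0 := by
      rintro rfl
      exact hF ((Subgroup.card_eq_one).mp (by simpa using hn2))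
    have hn1 : n ≠ 1 := by
      rintro rfl
      exact hne (by simpa using hn2)
    calc 4 = 2 ^ 2 := by norm_num
      _ ≤ 2 ^ n := Nat.pow_le_pow_right (by norm_num) (by omega)
  obtain ⟨x, hx, hxF⟩ := exists_not_mem_of_card_lt (H := Sq Y) (Y := Y)
    (Cfsg.Agent.Lib.PGroups.Basic.card_lt_of_lt hFlt)
  have hxc : x ∈ centralizer ((Sq Y : Subgroup G) : Set G) := by
    rw [mem_centralizer_iff]
    intro f hf
    exact (mem_centralizer_iff.mp (h.sq_central hf) x hx).symm
  exact hn (NCA.mono (sup_le (sq_le Y) (by rwa [zpowers_le]))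
    (nca_of_elem hge hsqF hcomF h.two (sq_le Y) hx hxF hxc))

/-- The nonabelian case, second part: `|Y| = 8`. -/
theorem IsMinAct.card_eight (hn : ¬ NCA Y) (hF : Sq Y ≠ ⊥) : Nat.card Y = 8 := by
  have hFlt : Sq Y < Y := sq_lt h.two h.ne
  have hF2 := h.card_sq hn hF
  obtain ⟨z, hz, hz1⟩ : ∃ z ∈ Sq Y, z ≠ 1 := by
    rcases (Sq Y).bot_or_exists_ne_one with h0 | h0
    · exact absurd h0 hF
    · exact h0
  have hzz : z ^ 2 = 1 := h.sq_invol hz
  have hFz : zpowers z = Sq Y := by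
    refine Subgroup.eq_of_le_of_card_ge (zpowers_le.mpr hz) ?_
    rw [hF2, Nat.card_zpowers, orderOf_eq_prime hzz hz1]
  have hFmem : ∀ w ∈ Sq Y, w = 1 ∨ w = z := fun w hw =>
    mem_zpowers_of_sq hzz (by rwa [hFz])
  obtain ⟨x, hx, hxF⟩ := exists_not_mem_of_card_lt (H := Sq Y) (Y := Y)
    (Cfsg.Agent.Lib.PGroups.Basic.card_lt_of_lt hFlt)
  have hder : ⁅Y, Y⁆ ≤ Sq Y := commutator_le_sq Y
  have hYN : Y ≤ normalizer ((Sq Y : Subgroup G) : Set G) := self_le_normalizer_sq Y
  have hU4 : Nat.card (zpowers x ⊔ Sq Y : Subgroup G) = 4 := by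
    rw [card_sup_zpowers_eq (hYN hx) hxF (sq_mem hx), hF2]
  set U : Subgroup G := zpowers x ⊔ Sq Y with hU
  have hUY : U ≤ Y := sup_le (by rwa [zpowers_le]) (sq_le Y)
  have hxU : x ∈ U := (le_sup_left : zpowers x ≤ U) (mem_zpowers x)
  have hFU : Sq Y ≤ U := le_sup_right
  have hzU : z ∈ U := hFU hz
  -- `U` is abelian
  have hFc : ∀ a ∈ Sq Y, ∀ b ∈ Y, a * b = b * a := fun a ha b hb =>
    (mem_centralizer_iff.mp (h.sq_central ha) b hb).symm
  have hUcomm : ∀ a ∈ U, ∀ b ∈ U, a * b = b * a := by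
    refine comm_of_sup (zpowers_comm x) (fun a ha b hb => hFc a ha b (sq_le Y hb)) ?_
    intro a ha b hb
    have hle : zpowers x ≤ Y := zpowers_le.mpr hx
    exact (hFc b hb a (hle ha)).symm
  have hUne : U ≠ Y := by
    intro he
    have hbot : ⁅Y, Y⁆ = ⊥ := by
      rw [eq_bot_iff, commutator_le]
      intro a ha b hb
      rw [mem_bot, commutatorElement_eq_one_iff_mul_comm]
      exact hUcomm a (he ▸ ha) b (he ▸ hb)
    exact hF (by rw [h.sq_eq_derived]; exact hbot)
  have hUlt : U < Y := lt_of_le_of_ne hUY hUne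
  have h8 : 8 ≤ Nat.card Y := by
    have := two_mul_le_of_lt hUlt
    omega
  obtain ⟨n, hn2⟩ := IsPGroup.iff_card.mp h.two
  have hn4 : n < 4 := by
    by_contra hge
    push Not at hge
    have h16 : 16 ≤ Nat.card Y := by
      rw [hn2]
      calc 16 = 2 ^ 4 := by norm_num
        _ ≤ 2 ^ n := Nat.pow_le_pow_right (by norm_num) hge
    -- the centralizer of `x` is large
    have hd : ∀ a ∈ Y, ∀ b ∈ Y, ⁅a, b⁆ ∈ Sq Y := fun a ha b hb => comm_mem_sq ha hb
    let f : Y →* Sq Y := commHom h.sq_central hd ⟨x, hx⟩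
    have h1 := Subgroup.card_mul_index f.ker
    rw [Subgroup.index_ker] at h1
    have h2 : Nat.card f.range ≤ 2 := by
      rw [← hF2]
      exact Subgroup.card_le_card_group _
    have h3 : 8 ≤ Nat.card f.ker := by
      by_contra hlt
      push Not at hlt
      have : Nat.card f.ker * Nat.card f.range ≤ 7 * 2 := Nat.mul_le_mul (by omega) h2
      omega
    obtain ⟨y, hy, hyU⟩ := exists_not_mem_of_card_lt (H := U) (Y := f.ker.map Y.subtype)
      (by rw [Subgroup.card_map_of_injective Y.subtype_injective, hU4]; omega)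
    obtain ⟨g, hg, rfl⟩ := hy
    have hgx : (x : G) * (g : G) = (g : G) * x := by
      have h4 : f g = 1 := hg
      have h5 : ⁅x, (g : G)⁆ = 1 := congrArg Subtype.val h4
      exact commutatorElement_eq_one_iff_mul_comm.mp h5
    set y : G := (g : G) with hy
    have hyY : y ∈ Y := g.2
    have hyU' : y ∉ U := hyU
    set B : Subgroup G := zpowers y ⊔ U with hB
    have hBY : B ≤ Y := sup_le (by rwa [zpowers_le]) hUY
    have hyB : y ∈ B := (le_sup_left : zpowers y ≤ B) (mem_zpowers y)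
    have hUB : U ≤ B := le_sup_right
    have hBcomm : ∀ a ∈ B, ∀ b ∈ B, a * b = b * a := by
      refine comm_of_sup (zpowers_comm y) hUcomm ?_
      have hyc : zpowers y ≤ centralizer (U : Set G) := by
        rw [zpowers_le]
        rw [mem_centralizer_iff]
        have hle : U ≤ centralizer ({y} : Set G) := by
          refine sup_le ?_ ?_
          · rw [zpowers_le, mem_centralizer_iff]
            intro g hg
            rw [Set.mem_singleton_iff] at hg
            rw [hg]; exact hgx.symm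
          · intro f hf
            rw [mem_centralizer_iff]
            intro g hg
            rw [Set.mem_singleton_iff] at hg
            rw [hg]; exact (hFc f hf y hyY).symm
        intro u hu
        exact (mem_centralizer_iff.mp (hle hu) y rfl).symm
      intro a ha b hb
      exact (mem_centralizer_iff.mp (hyc ha) b hb).symm
    have hB8 : 8 ≤ Nat.card B := by
      have hlt : U < B := by
        refine lt_of_le_of_ne le_sup_right (fun he => hyU' ?_)
        rw [he]
        exact hyB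
      have := two_mul_le_of_lt hlt
      omega
    have hB2 : IsPGroup 2 B := h.two.to_le hBY
    have hxz : x ≠ z := by
      rintro rfl
      exact hxF hz
    have hx1 : x ≠ 1 := by
      rintro rfl
      exact hxF (one_mem _)
    have hyz : y ≠ z := by
      intro he
      exact hyU' (he ▸ hzU)
    have hy1 : y ≠ 1 := by
      intro he
      exact hyU' (he ▸ one_mem _)
    rcases hFmem _ (sq_mem hx) with hx2 | hx2
    · exact hn (NCA.mono hBY (nca_of_two_invol hBcomm hB2 hB8 (hUB hxU) (hUB hzU) hx2 hzz hx1 hz1 hxz))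
    rcases hFmem _ (sq_mem hyY) with hy2 | hy2
    · exact hn (NCA.mono hBY (nca_of_two_invol hBcomm hB2 hB8 hyB (hUB hzU) hy2 hzz hy1 hz1 hyz))
    have hxy2 : (x * y) ^ 2 = 1 := by
      rw [(show Commute x y from hgx).mul_pow, hx2, hy2, ← pow_two, hzz]
    have hxy1 : x * y ≠ 1 := by
      intro he
      apply hyU'
      have : y = x⁻¹ := eq_inv_of_mul_eq_one_right he
      rw [this]
      exact U.inv_mem hxU
    have hxyz : x * y ≠ z := by
      intro he
      apply hyU'
      have : y = x⁻¹ * z := by rw [← he]; group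
      rw [this]
      exact U.mul_mem (U.inv_mem hxU) hzU
    exact hn (NCA.mono hBY (nca_of_two_invol hBcomm hB2 hB8 (B.mul_mem (hUB hxU) hyB) (hUB hzU)
      hxy2 hzz hxy1 hz1 hxyz))
  have hn3 : n = 3 := by
    by_contra hne
    have : n ≤ 2 := by omega
    have h4 : 2 ^ n ≤ 2 ^ 2 := Nat.pow_le_pow_right (by norm_num) this
    rw [hn2] at h8
    omega
  rw [hn2, hn3]; norm_num

/-- The nonabelian case, final part. -/
theorem IsMinAct.q8 (hn : ¬ NCA Y) (hF : Sq Y ≠ ⊥) : ∃ z, IsQ8 Y z := by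
  have hFlt : Sq Y < Y := sq_lt h.two h.ne
  have hF2 := h.card_sq hn hF
  have h8 := h.card_eight hn hF
  obtain ⟨z, hz, hz1⟩ : ∃ z ∈ Sq Y, z ≠ 1 := by
    rcases (Sq Y).bot_or_exists_ne_one with h0 | h0
    · exact absurd h0 hF
    · exact h0
  have hzz : z ^ 2 = 1 := h.sq_invol hz
  have hFz : zpowers z = Sq Y := by
    refine Subgroup.eq_of_le_of_card_ge (zpowers_le.mpr hz) ?_
    rw [hF2, Nat.card_zpowers, orderOf_eq_prime hzz hz1]
  have hFmem : ∀ w ∈ Sq Y, w = 1 ∨ w = z := fun w hw =>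
    mem_zpowers_of_sq hzz (by rwa [hFz])
  have hYN : Y ≤ normalizer ((Sq Y : Subgroup G) : Set G) := self_le_normalizer_sq Y
  -- an element moved modulo `F`
  obtain ⟨y, hy, k, hk, hmove⟩ : ∃ y ∈ Y, ∃ k ∈ K, y⁻¹ * (k * y * k⁻¹) ∉ Sq Y := by
    by_contra hall
    push Not at hall
    apply hFlt.ne'
    refine le_antisymm ?_ (sq_le Y)
    have hc2 : ⁅Y, K⁆ ≤ Sq Y := by
      rw [commutator_le]
      intro a ha b hb
      have := hall a⁻¹ (Y.inv_mem ha) b hb
      have e : ⁅a, b⁆ = (a⁻¹)⁻¹ * (b * a⁻¹ * b⁻¹) := by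
        rw [commutatorElement_def]; group
      rw [e]
      exact this
    rwa [h.comm] at hc2
  have hk' : k⁻¹ ∈ K := K.inv_mem hk
  have hfix := fun {f : G} (hf : f ∈ Sq Y) => h.conj_fix hf hk
  have hfix' := fun {f : G} (hf : f ∈ Sq Y) => h.conj_fix hf hk'
  set y' : G := k * y * k⁻¹ with hy'def
  have hy' : y' ∈ Y := conj_mem_of_le_normalizer h.norm hk hy
  have hyy' : k⁻¹ * y' * k = y := by rw [hy'def]; group
  have hyF : y ∉ Sq Y := by
    intro hf
    apply hmove
    rw [hy'def, hfix hf, inv_mul_cancel]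
    exact one_mem _
  have hy'F : y' ∉ Sq Y := by
    intro hf
    apply hmove
    have := hfix' hf
    rw [inv_inv, hyy'] at this
    rw [this, inv_mul_cancel]
    exact one_mem _
  -- the cover
  have hcover : ∀ w ∈ Y, w ∈ Sq Y ∨ y⁻¹ * w ∈ Sq Y ∨ y'⁻¹ * w ∈ Sq Y ∨ y⁻¹ * (y'⁻¹ * w) ∈ Sq Y := by
    have hU4 : Nat.card (zpowers y ⊔ Sq Y : Subgroup G) = 4 := by
      rw [card_sup_zpowers_eq (hYN hy) hyF (sq_mem hy), hF2]
    set U : Subgroup G := zpowers y ⊔ Sq Y with hU
    have hUY : U ≤ Y := sup_le (by rwa [zpowers_le]) (sq_le Y)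
    have hFU : Sq Y ≤ U := le_sup_right
    have hYU : Y ≤ normalizer (U : Set G) :=
      normalizer_of_derived_le hUY ((commutator_le_sq Y).trans hFU)
    have hy'U : y' ∉ U := by
      intro hm
      rcases mem_sup_zpowers (hYN hy) (sq_mem hy) hm with h1 | h1
      · exact hy'F h1
      · exact hmove h1
    have hL : zpowers y' ⊔ U = Y := by
      refine Subgroup.eq_of_le_of_card_ge (sup_le (by rwa [zpowers_le]) hUY) ?_
      rw [card_sup_zpowers_eq (hYU hy') hy'U (hFU (sq_mem hy')), hU4, h8]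
    intro w hw
    have hw' : w ∈ zpowers y' ⊔ U := by rwa [hL]
    rcases mem_sup_zpowers (hYU hy') (hFU (sq_mem hy')) hw' with h1 | h1
    · rcases mem_sup_zpowers (hYN hy) (sq_mem hy) h1 with h2 | h2
      · exact Or.inl h2
      · exact Or.inr (Or.inl h2)
    · rcases mem_sup_zpowers (hYN hy) (sq_mem hy) h1 with h2 | h2
      · exact Or.inr (Or.inr (Or.inl h2))
      · exact Or.inr (Or.inr (Or.inr h2))
  set y'' : G := k * y' * k⁻¹ with hy''def
  have hy'' : y'' ∈ Y := conj_mem_of_le_normalizer h.norm hk hy'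
  have hy'y'' : k⁻¹ * y'' * k = y' := by rw [hy''def]; group
  -- the odd order argument
  have hodd : y⁻¹ * y'' ∉ Sq Y := by
    intro hm
    set g : G := k * k with hg
    have hgK : g ∈ K := K.mul_mem hk hk
    have hgy : y'' = g * y * g⁻¹ := by rw [hy''def, hy'def, hg]; group
    have hall : ∀ n : ℕ, y⁻¹ * (g ^ n * y * (g ^ n)⁻¹) ∈ Sq Y := by
      intro n
      induction n with
      | zero => simp [one_mem]
      | succ n ih =>
        set a : G := g ^ n * y * (g ^ n)⁻¹ with ha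
        have h1 : y⁻¹ * (g ^ (n + 1) * y * (g ^ (n + 1))⁻¹) = (y⁻¹ * (g * y * g⁻¹)) *
            (g * (y⁻¹ * a) * g⁻¹) := by
          rw [pow_succ', ha]; group
        rw [h1, h.conj_fix ih hgK]
        rw [← hgy]
        exact Subgroup.mul_mem _ hm ih
    obtain ⟨m, hm'⟩ := h.odd
    have hk1 : k ^ (2 * m + 1) = 1 := by
      have := pow_card_eq_one' (x := (⟨k, hk⟩ : K))
      rw [hm'] at this
      simpa using congrArg Subtype.val this
    have hgk : g ^ (m + 1) = k := by
      have e1 : g = k ^ 2 := by rw [hg, pow_two]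
      rw [e1, ← pow_mul]
      have e2 : 2 * (m + 1) = (2 * m + 1) + 1 := by ring
      rw [e2, pow_succ, hk1, one_mul]
    have := hall (m + 1)
    rw [hgk] at this
    exact hmove this
  have hf : y⁻¹ * (y'⁻¹ * y'') ∈ Sq Y := by
    rcases hcover y'' hy'' with h1 | h1 | h1 | h1
    · exfalso
      apply hy'F
      have := hfix' h1
      rw [inv_inv, hy'y''] at this
      rw [this]
      exact h1
    · exact absurd h1 hodd
    · exfalso
      apply hmove
      have := hfix' h1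
      have e : k⁻¹ * (y'⁻¹ * y'') * k⁻¹⁻¹ = y⁻¹ * y' := by
        rw [hy''def]
        nth_rewrite 1 [hy'def]
        group
      rw [e] at this
      rw [this]
      exact h1
    · exact h1
  -- squares
  have hcen : ∀ f ∈ Sq Y, ∀ a ∈ Y, (a * f) ^ 2 = a ^ 2 := by
    intro f hf a ha
    have hc : Commute a f := mem_centralizer_iff.mp (h.sq_central hf) a ha
    rw [hc.mul_pow, h.sq_invol hf, mul_one]
  have hy'2 : y' ^ 2 = y ^ 2 := by
    have := hfix (sq_mem hy)
    rw [← this, hy'def, pow_two, pow_two]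
    group
  have hy''2 : y'' ^ 2 = y' ^ 2 := by
    have := hfix (sq_mem hy')
    rw [← this, hy''def, pow_two, pow_two]
    group
  have hprod : (y' * y) ^ 2 = y ^ 2 := by
    have e : y'' = y' * y * (y⁻¹ * (y'⁻¹ * y'')) := by group
    have h1 := hcen _ hf (y' * y) (Y.mul_mem hy' hy)
    rw [← e, hy''2, hy'2] at h1
    exact h1.symm
  have hall : ∀ w ∈ Y, w ∉ Sq Y → w ^ 2 = y ^ 2 := by
    intro w hw hwF
    rcases hcover w hw with h1 | h1 | h1 | h1
    · exact absurd h1 hwF
    · have e : w = y * (y⁻¹ * w) := by group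
      rw [e]
      exact hcen _ h1 y hy
    · have e : w = y' * (y'⁻¹ * w) := by group
      rw [e, hcen _ h1 y' hy', hy'2]
    · have e : w = y' * y * (y⁻¹ * (y'⁻¹ * w)) := by group
      rw [e, hcen _ h1 _ (Y.mul_mem hy' hy), hprod]
  have hy2z : y ^ 2 = z := by
    rcases hFmem _ (sq_mem hy) with h1 | h1
    · exfalso
      apply hF
      rw [eq_bot_iff, Sq, closure_le]
      rintro _ ⟨x, hx, rfl⟩
      by_cases hxF : x ∈ Sq Y
      · exact h.sq_invol hxF
      · rw [SetLike.mem_coe, mem_bot, hall x hx hxF, h1]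
    · exact h1
  refine ⟨z, h8, sq_le Y hz, hz1, hzz, ?_, ?_⟩
  · intro w hw
    exact (mem_centralizer_iff.mp (h.sq_central hz) w hw).symm
  · intro w hw hw1 hwz
    rw [← hy2z]
    apply hall w hw
    intro hm
    rcases hFmem w hm with h1 | h1
    · exact hw1 h1
    · exact hwz h1

theorem IsMinAct.cases (hn : ¬ NCA Y) : IsV4 Y ∨ ∃ z, IsQ8 Y z := by
  by_cases hF : Sq Y = ⊥
  · exact Or.inl (h.v4 hn hF)
  · exact Or.inr (h.q8 hn hF)

end

/-- Element growth of normalizers in 2-groups. -/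
theorem exists_mem_normalizer_not_mem {Y U : Subgroup G} (hY : IsPGroup 2 Y) (hU : U < Y) :
    ∃ t ∈ Y, t ∉ U ∧ t ∈ normalizer (U : Set G) := by
  haveI : Fact (Nat.Prime 2) := ⟨Nat.prime_two⟩
  haveI : Group.IsNilpotent Y := Cfsg.Agent.Lib.PGroups.Basic.isNilpotent_of_pGroup hY
  have hlt : U.subgroupOf Y < ⊤ := by
    rw [lt_top_iff_ne_top]
    intro he
    apply hU.not_ge
    intro y hy
    have : (⟨y, hy⟩ : Y) ∈ U.subgroupOf Y := by rw [he]; trivial
    simpa [mem_subgroupOf] using this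
  have h1 := Group.normalizerCondition_of_isNilpotent (G := Y) _ hlt
  obtain ⟨t, ht, htU⟩ := SetLike.exists_of_lt h1
  refine ⟨t, t.2, fun hm => htU (by simpa [mem_subgroupOf] using hm), ?_⟩
  rw [mem_normalizer_iff]
  intro g
  have hnorm := mem_normalizer_iff.mp ht
  constructor
  · intro hg
    have hgY : g ∈ Y := hU.le hg
    have := (hnorm ⟨g, hgY⟩).mp (by simpa [mem_subgroupOf] using hg)
    simpa [mem_subgroupOf] using this
  · intro hg
    have hg1 : (t : G) * g * (t : G)⁻¹ ∈ Y := hU.le hg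
    have hgY : g ∈ Y := by
      have e : g = (t : G)⁻¹ * ((t : G) * g * (t : G)⁻¹) * t := by group
      rw [e]
      exact Y.mul_mem (Y.mul_mem (Y.inv_mem t.2) hg1) t.2
    have := (hnorm ⟨g, hgY⟩).mpr (by simpa [mem_subgroupOf] using hg)
    simpa [mem_subgroupOf] using this

theorem le_normalizer_normalizer {T A : Subgroup G} (hA : T ≤ normalizer (A : Set G)) :
    T ≤ normalizer ((normalizer (A : Set G) : Subgroup G) : Set G) := by
  rw [le_normalizer_iff]
  intro k hk t ht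
  rw [mem_normalizer_iff]
  intro g
  have hkk := mem_normalizer_iff.mp (hA hk)
  have htt := mem_normalizer_iff.mp ht
  have e1 := hkk (k⁻¹ * g * k)
  have e2 := htt (k⁻¹ * g * k)
  have e3 := hkk (t * (k⁻¹ * g * k) * t⁻¹)
  have e4 : k * (k⁻¹ * g * k) * k⁻¹ = g := by group
  have e5 : k * (t * (k⁻¹ * g * k) * t⁻¹) * k⁻¹ = k * t * k⁻¹ * g * (k * t * k⁻¹)⁻¹ := by group
  rw [e4] at e1
  rw [e5] at e3
  rw [← e1, e2, e3]

/-- **Lemma Y**: a nontrivial odd action on a 2-group without `NCA` is minimal. -/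
theorem isMinAct_of_not_nca {Y K : Subgroup G} (h : OddAct Y K) (hne : ¬ Y ≤ centralizer (K : Set G))
    (hn : ¬ NCA Y) : IsMinAct Y K := by
  classical
  -- a minimal invariant subgroup not centralized by `K`
  let P : Set (Subgroup G) := {U | U ≤ Y ∧ K ≤ normalizer (U : Set G) ∧ ¬ U ≤ centralizer (K : Set G)}
  have hP : P.Nonempty := ⟨Y, le_rfl, h.norm, hne⟩
  obtain ⟨Y0, ⟨hY0, hKY0, hY0c⟩, hmin⟩ := WellFounded.has_min (wellFounded_lt (α := Subgroup G)) P hP
  have hact : OddAct Y0 K := h.mono hY0 hKY0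
  have hcomm : ⁅Y0, K⁆ = Y0 := by
    by_contra hne'
    have hle : ⁅Y0, K⁆ ≤ Y0 := commutator_le_of_le_normalizer hKY0
    have hlt : ⁅Y0, K⁆ < Y0 := lt_of_le_of_ne hle hne'
    apply hmin _ _ hlt
    refine ⟨hle.trans hY0, le_normalizer_commutator_of_le hKY0 le_normalizer, ?_⟩
    intro hc
    have h1 : ⁅⁅Y0, K⁆, K⁆ = ⊥ := commutator_eq_bot_iff_le_centralizer.mpr hc
    rw [commutator_commutator_eq hKY0 hact.cop hact.solv] at h1
    exact hY0c (commutator_eq_bot_iff_le_centralizer.mp h1)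
  have hY0ne : Y0 ≠ ⊥ := by
    rintro rfl
    exact hY0c bot_le
  have hmin0 : IsMinAct Y0 K := by
    refine ⟨hact, hcomm, hY0ne, ?_⟩
    intro U hU hUne hKU
    by_contra hc
    exact hmin U ⟨hU.trans hY0, hKU, hc⟩ (lt_of_le_of_ne hU hUne)
  by_cases hYeq : Y0 = Y
  · rwa [hYeq] at hmin0
  exfalso
  have hlt : Y0 < Y := lt_of_le_of_ne hY0 hYeq
  have hn0 : ¬ NCA Y0 := fun hh => hn (hh.mono hY0)
  -- the normalizer of `Y0` in `Y`
  set T : Subgroup G := Y ⊓ normalizer (Y0 : Set G) with hT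
  have hTY : T ≤ Y := inf_le_left
  have hT2 : IsPGroup 2 T := h.two.to_le hTY
  have hY0T : Y0 ≤ T := le_inf hY0 le_normalizer
  have hTN : T ≤ normalizer (Y0 : Set G) := inf_le_right
  have hKT : K ≤ normalizer (T : Set G) := le_normalizer_inf h.norm (le_normalizer_normalizer hKY0)
  have hL : ⁅Y0, T⁆ ≤ Y0 := commutator_le_of_le_normalizer hTN
  have hLne : ⁅Y0, T⁆ ≠ Y0 := comm_ne_self hT2 hY0T hY0ne
  have hKL : K ≤ normalizer ((⁅Y0, T⁆ : Subgroup G) : Set G) :=
    le_normalizer_commutator_of_le hKY0 hKT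
  have hLc : ⁅Y0, T⁆ ≤ centralizer (K : Set G) := hmin0.min _ hL hLne hKL
  have hLsq : ⁅Y0, T⁆ ≤ Sq Y0 := fun c hc => fixed_le_sq hact hcomm (hL hc) (hLc hc)
  obtain ⟨t, htY, htY0, htN⟩ := exists_mem_normalizer_not_mem h.two hlt
  have htT : t ∈ T := ⟨htY, htN⟩
  rcases hmin0.cases hn0 with hv | ⟨z, hq⟩
  · have htc : t ∈ centralizer (Y0 : Set G) := by
      rw [mem_centralizer_iff]
      intro w hw
      have h1 := hLsq (commutator_mem_commutator hw htT)
      rw [hv.sq_eq_bot, mem_bot] at h1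
      exact commutatorElement_eq_one_iff_mul_comm.mp h1
    exact hn ((hv.nca h.two hY0 htY htY0 htc).mono (sup_le hY0 (zpowers_le.mpr htY)))
  · have hact1 : ∀ w ∈ Y0, t * w * t⁻¹ = w ∨ t * w * t⁻¹ = z * w := by
      intro w hw
      have hzz : z * z = 1 := by rw [← pow_two]; exact hq.sq
      rcases hq.mem_sq_iff (hLsq (commutator_mem_commutator hw htT)) with h1 | h1
      · left
        have := commutatorElement_eq_one_iff_mul_comm.mp h1
        rw [← this]; group
      · right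
        rw [commutatorElement_def] at h1
        have hz' : z⁻¹ = z := by
          rw [inv_eq_iff_mul_eq_one]; exact hzz
        calc t * w * t⁻¹ = (w * t * w⁻¹ * t⁻¹)⁻¹ * w := by group
          _ = z * w := by rw [h1, hz']
    obtain ⟨i, hi, hi1, hiz⟩ := hq.exists_ne
    obtain ⟨j, hj, hji⟩ := hq.exists_not_zpowers hi
    obtain ⟨e, he, hec⟩ := hq.exists_inner hi hi1 hiz hj hji (hact1 i hi) (hact1 j hj)
    have hcY : e⁻¹ * t ∈ Y := Y.mul_mem (Y.inv_mem (hY0 he)) htY
    have hcY0 : e⁻¹ * t ∉ Y0 := by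
      intro hm
      apply htY0
      have e1 : t = e * (e⁻¹ * t) := by group
      rw [e1]
      exact Y0.mul_mem he hm
    obtain ⟨m, hm1, hm2⟩ := exists_pow_not_mem_sq_mem h.two hcY hcY0
    exact hn ((hq.nca h.two hY0 (Y.pow_mem hcY m) hm1 (pow_mem hec m) hm2).mono
      (sup_le hY0 (zpowers_le.mpr (Y.pow_mem hcY m))))

end Cfsg.Agent.Lib.NCA8.MinAct
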