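import Cfsg.Agent.Lib.NCA8.Act
import Cfsg.Agent.Lib.PGroups.Presentations

/-!
# The two minimal structures: `V₄` and `Q₈`, as subgroups of an ambient group
-/

set_option autoImplicit false

namespace Cfsg.Agent.Lib.NCA8.Q8

open Subgroup
open Cfsg.Agent.Lib.Coprime.Action Cfsg.Agent.Lib.NCA8.Basic Cfsg.Agent.Lib.NCA8.Act
open scoped commutatorElement

universe u

variable {G : Type u} [Group G]

/-- `Y` is a four-group. -/
structure IsV4 (Y : Subgroup G) : Prop where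
  card : Nat.card Y = 4
  sq : ∀ y ∈ Y, y ^ 2 = 1
  comm : ∀ x ∈ Y, ∀ y ∈ Y, x * y = y * x

/-- `Y` is a quaternion group of order 8 with central involution `z`. -/
structure IsQ8 (Y : Subgroup G) (z : G) : Prop where
  card : Nat.card Y = 8
  mem : z ∈ Y
  ne : z ≠ 1
  sq : z ^ 2 = 1
  central : ∀ y ∈ Y, z * y = y * z
  sq_eq : ∀ y ∈ Y, y ≠ 1 → y ≠ z → y ^ 2 = z

theorem zpowers_comm (t : G) : ∀ a ∈ zpowers t, ∀ b ∈ zpowers t, a * b = b * a := by
  rintro _ ⟨m, rfl⟩ _ ⟨n, rfl⟩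
  exact (Commute.refl t).zpow_zpow m n

theorem IsV4.sq_eq_bot {Y : Subgroup G} (h : IsV4 Y) : Sq Y = ⊥ := by
  rw [eq_bot_iff, Sq, closure_le]
  rintro _ ⟨x, hx, rfl⟩
  exact h.sq x hx

variable [Finite G]

/-- An elementary abelian subgroup of order at least 3 has two distinct involutions. -/
theorem exists_two_of_card {Y : Subgroup G} (hc : 3 ≤ Nat.card Y) (hsq : ∀ y ∈ Y, y ^ 2 = 1) :
    ∃ u ∈ Y, ∃ v ∈ Y, u ≠ 1 ∧ v ≠ 1 ∧ u ≠ v := by
  have hY : Y ≠ ⊥ := by
    intro h0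
    rw [h0] at hc
    simp at hc
  rcases Y.bot_or_exists_ne_one with h0 | ⟨u, hu, hu1⟩
  · exact absurd h0 hY
  have ou : orderOf u = 2 := orderOf_eq_prime (hsq u hu) hu1
  obtain ⟨v, hv, hvu⟩ := exists_not_mem_of_card_lt (H := zpowers u) (Y := Y)
    (by rw [Nat.card_zpowers, ou]; omega)
  refine ⟨u, hu, v, hv, hu1, ?_, ?_⟩
  · rintro rfl
    exact hvu (one_mem _)
  · rintro rfl
    exact hvu (mem_zpowers _)

/-- An element outside an elementary abelian subgroup of order at least 4 centralizing it. -/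
theorem nca_of_elem {Y T : Subgroup G} (hc : 4 ≤ Nat.card Y) (hsq : ∀ y ∈ Y, y ^ 2 = 1)
    (hcomm : ∀ x ∈ Y, ∀ y ∈ Y, x * y = y * x) (hT : IsPGroup 2 T) (hYT : Y ≤ T) {t : G}
    (htT : t ∈ T) (ht : t ∉ Y) (htc : t ∈ centralizer (Y : Set G)) : NCA (Y ⊔ zpowers t) := by
  obtain ⟨u, hu, v, hv, hu1, hv1, huv⟩ := exists_two_of_card (by omega) hsq
  have hlt : Y < Y ⊔ zpowers t := by
    refine lt_of_le_of_ne le_sup_left (fun he => ht ?_)
    rw [he]
    exact (le_sup_right : zpowers t ≤ Y ⊔ zpowers t) (mem_zpowers t)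
  have hle : zpowers t ≤ centralizer (Y : Set G) := by rwa [zpowers_le]
  refine nca_of_two_invol (B := Y ⊔ zpowers t) ?_ (hT.to_le (sup_le hYT (by rwa [zpowers_le]))) ?_
    ((le_sup_left : Y ≤ Y ⊔ zpowers t) hu) ((le_sup_left : Y ≤ Y ⊔ zpowers t) hv)
    (hsq u hu) (hsq v hv) hu1 hv1 huv
  · exact comm_of_sup hcomm (zpowers_comm t) (fun a ha b hb => mem_centralizer_iff.mp (hle hb) a ha)
  · have := two_mul_le_of_lt hlt
    omega

theorem IsV4.nca {Y T : Subgroup G} (h : IsV4 Y) (hT : IsPGroup 2 T) (hYT : Y ≤ T) {t : G}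
    (htT : t ∈ T) (ht : t ∉ Y) (htc : t ∈ centralizer (Y : Set G)) : NCA (Y ⊔ zpowers t) :=
  nca_of_elem h.card.ge h.sq h.comm hT hYT htT ht htc

section Q8

variable {Y : Subgroup G} {z : G} (h : IsQ8 Y z)
include h

theorem IsQ8.pow_four {w : G} (hw : w ∈ Y) : w ^ 4 = 1 := by
  have e : w ^ 4 = (w ^ 2) ^ 2 := by rw [← pow_mul]
  by_cases h1 : w = 1
  · rw [h1, one_pow]
  by_cases h2 : w = z
  · rw [e, h2, h.sq, one_pow]
  · rw [e, h.sq_eq w hw h1 h2, h.sq]

theorem IsQ8.exists_not_zpowers {w : G} (hw : w ∈ Y) : ∃ v ∈ Y, v ∉ zpowers w := by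
  apply exists_not_mem_of_card_lt
  rw [Nat.card_zpowers, h.card]
  have := orderOf_le_of_pow_eq_one (by norm_num) (h.pow_four hw)
  omega

theorem IsQ8.exists_ne : ∃ i ∈ Y, i ≠ 1 ∧ i ≠ z := by
  obtain ⟨i, hi, hiz⟩ := h.exists_not_zpowers h.mem
  refine ⟨i, hi, ?_, ?_⟩
  · rintro rfl
    exact hiz (one_mem _)
  · rintro rfl
    exact hiz (mem_zpowers _)

theorem IsQ8.orderOf_eq {i : G} (hi : i ∈ Y) (hi1 : i ≠ 1) (hiz : i ≠ z) : orderOf i = 4 := by
  have h1 : i ^ 2 = z := h.sq_eq i hi hi1 hiz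
  have := orderOf_eq_prime_pow (x := i) (p := 2) (n := 1)
    (by rw [pow_one, h1]; exact h.ne) (by
      have := h.pow_four hi
      norm_num
      exact this)
  simpa using this

theorem IsQ8.anticomm {w v : G} (hw : w ∈ Y) (hw1 : w ≠ 1) (hwz : w ≠ z) (hv : v ∈ Y)
    (hvw : v ∉ zpowers w) : v * w = z * w * v := by
  have hw2 : w ^ 2 = z := h.sq_eq w hw hw1 hwz
  have hv1 : v ≠ 1 := by
    rintro rfl
    exact hvw (one_mem _)
  have hvz : v ≠ z := by
    rintro rfl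
    apply hvw
    rw [← hw2]
    exact pow_mem (mem_zpowers w) 2
  have hv2 : v ^ 2 = z := h.sq_eq v hv hv1 hvz
  have hwv1 : w * v ≠ 1 := by
    intro he
    apply hvw
    have : v = w⁻¹ := eq_inv_of_mul_eq_one_right he
    rw [this]
    exact inv_mem (mem_zpowers w)
  have hwvz : w * v ≠ z := by
    intro he
    apply hvw
    have : v = w := by
      have e1 : w * v = w * w := by rw [he, ← hw2, pow_two]
      exact mul_left_cancel e1
    rw [this]
    exact mem_zpowers w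
  have hwv : (w * v) ^ 2 = z := h.sq_eq _ (Y.mul_mem hw hv) hwv1 hwvz
  have hzz : z * z = 1 := by rw [← pow_two]; exact h.sq
  have hw' : w⁻¹ = w * z := by
    apply inv_eq_of_mul_eq_one_right
    rw [← mul_assoc, ← pow_two, hw2, hzz]
  have hv' : v⁻¹ = v * z := by
    apply inv_eq_of_mul_eq_one_right
    rw [← mul_assoc, ← pow_two, hv2, hzz]
  calc v * w = w⁻¹ * ((w * v) * (w * v)) * v⁻¹ := by group
    _ = w⁻¹ * z * v⁻¹ := by rw [← pow_two, hwv]
    _ = w * (z * z) * v * z := by rw [hw', hv']; group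
    _ = z * (w * v) := by
      rw [hzz, mul_one]
      exact (h.central _ (Y.mul_mem hw hv)).symm
    _ = z * w * v := by group

theorem IsQ8.mem_zpowers_of_comm {w v : G} (hw : w ∈ Y) (hw1 : w ≠ 1) (hwz : w ≠ z) (hv : v ∈ Y)
    (hc : v * w = w * v) : v ∈ zpowers w := by
  by_contra hvw
  have h1 := h.anticomm hw hw1 hwz hv hvw
  rw [hc] at h1
  have h2 : w * v = z * (w * v) := by rw [← mul_assoc]; exact h1
  exact h.ne (mul_eq_right.mp h2.symm)

theorem IsQ8.central_eq {w : G} (hw : w ∈ Y) (hc : ∀ y ∈ Y, y * w = w * y) : w = 1 ∨ w = z := by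
  by_contra hne
  push Not at hne
  obtain ⟨v, hv, hvw⟩ := h.exists_not_zpowers hw
  exact hvw (h.mem_zpowers_of_comm hw hne.1 hne.2 hv (hc v hv))

theorem IsQ8.sup_pair {i j : G} (hi : i ∈ Y) (hi1 : i ≠ 1) (hiz : i ≠ z) (hj : j ∈ Y)
    (hji : j ∉ zpowers i) : zpowers j ⊔ zpowers i = Y := by
  have hle : zpowers j ⊔ zpowers i ≤ Y := sup_le (by rwa [zpowers_le]) (by rwa [zpowers_le])
  have hlt : zpowers i < zpowers j ⊔ zpowers i := by
    refine lt_of_le_of_ne le_sup_right (fun he => hji ?_)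
    rw [he]
    exact (le_sup_left : zpowers j ≤ zpowers j ⊔ zpowers i) (mem_zpowers j)
  have h1 := two_mul_le_of_lt hlt
  rw [Nat.card_zpowers, h.orderOf_eq hi hi1 hiz] at h1
  exact Subgroup.eq_of_le_of_card_ge hle (by rw [h.card]; omega)

theorem IsQ8.mem_centralizer_of_pair {i j c : G} (hi : i ∈ Y) (hi1 : i ≠ 1) (hiz : i ≠ z)
    (hj : j ∈ Y) (hji : j ∉ zpowers i) (hci : c * i = i * c) (hcj : c * j = j * c) :
    c ∈ centralizer (Y : Set G) := by
  have hle : Y ≤ centralizer ({c} : Set G) := by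
    rw [← h.sup_pair hi hi1 hiz hj hji]
    refine sup_le ?_ ?_
    · rw [zpowers_le, mem_centralizer_iff]
      intro g hg
      rw [Set.mem_singleton_iff] at hg
      rw [hg]; exact hcj
    · rw [zpowers_le, mem_centralizer_iff]
      intro g hg
      rw [Set.mem_singleton_iff] at hg
      rw [hg]; exact hci
  rw [mem_centralizer_iff]
  intro g hg
  exact (mem_centralizer_iff.mp (hle hg) c rfl).symm

theorem IsQ8.exists_inner {i j t : G} (hi : i ∈ Y) (hi1 : i ≠ 1) (hiz : i ≠ z) (hj : j ∈ Y)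
    (hji : j ∉ zpowers i) (h1 : t * i * t⁻¹ = i ∨ t * i * t⁻¹ = z * i)
    (h2 : t * j * t⁻¹ = j ∨ t * j * t⁻¹ = z * j) :
    ∃ e ∈ Y, e⁻¹ * t ∈ centralizer (Y : Set G) := by
  have hzz : z * z = 1 := by rw [← pow_two]; exact h.sq
  have hji' : j * i = z * i * j := h.anticomm hi hi1 hiz hj hji
  have hA : i * j * i⁻¹ = z * j := by
    have : i * j = z * j * i := by
      calc i * j = (z * z) * (i * j) := by rw [hzz, one_mul]
        _ = z * (z * i * j) := by group
        _ = z * (j * i) := by rw [hji']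
        _ = z * j * i := by group
    rw [this]; group
  have hB : j * i * j⁻¹ = z * i := by rw [hji']; group
  -- a criterion
  have crit : ∀ e ∈ Y, t * i * t⁻¹ = e * i * e⁻¹ → t * j * t⁻¹ = e * j * e⁻¹ →
      ∃ e ∈ Y, e⁻¹ * t ∈ centralizer (Y : Set G) := by
    intro e he h3 h4
    refine ⟨e, he, h.mem_centralizer_of_pair hi hi1 hiz hj hji ?_ ?_⟩
    · have : t * i = e * i * e⁻¹ * t := by rw [← h3]; group
      calc e⁻¹ * t * i = e⁻¹ * (t * i) := by group
        _ = e⁻¹ * (e * i * e⁻¹ * t) := by rw [this]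
        _ = i * (e⁻¹ * t) := by group
    · have : t * j = e * j * e⁻¹ * t := by rw [← h4]; group
      calc e⁻¹ * t * j = e⁻¹ * (t * j) := by group
        _ = e⁻¹ * (e * j * e⁻¹ * t) := by rw [this]
        _ = j * (e⁻¹ * t) := by group
  rcases h1 with h1 | h1 <;> rcases h2 with h2 | h2
  · exact crit 1 (one_mem _) (by rw [h1]; group) (by rw [h2]; group)
  · exact crit i hi (by rw [h1]; group) (by rw [h2, hA])
  · exact crit j hj (by rw [h1, hB]) (by rw [h2]; group)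
  · refine crit (i * j) (Y.mul_mem hi hj) ?_ ?_
    · rw [h1]
      have : i * j * i * (i * j)⁻¹ = i * (j * i * j⁻¹) * i⁻¹ := by group
      rw [this, hB]
      have : i * (z * i) * i⁻¹ = i * z := by group
      rw [this, h.central i hi]
    · rw [h2]
      have : i * j * j * (i * j)⁻¹ = i * j * i⁻¹ := by group
      rw [this, hA]

theorem IsQ8.nca {T : Subgroup G} (hT : IsPGroup 2 T) (hYT : Y ≤ T) {c : G} (hcT : c ∈ T)
    (hc : c ∉ Y) (hcc : c ∈ centralizer (Y : Set G)) (hc2 : c ^ 2 ∈ Y) : NCA (Y ⊔ zpowers c) := by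
  obtain ⟨i, hi, hi1, hiz⟩ := h.exists_ne
  have hcc2 : c ^ 2 = 1 ∨ c ^ 2 = z := by
    apply h.central_eq hc2
    intro y hy
    exact mem_centralizer_iff.mp (pow_mem hcc 2) y hy
  have hi2 : i ^ 2 = z := h.sq_eq i hi hi1 hiz
  have hzz : z ^ 2 = 1 := h.sq
  set B : Subgroup G := zpowers i ⊔ zpowers c with hB
  have hBle : B ≤ Y ⊔ zpowers c :=
    sup_le ((zpowers_le.mpr hi).trans le_sup_left) le_sup_right
  have hcB : c ∈ B := (le_sup_right : zpowers c ≤ B) (mem_zpowers c)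
  have hiB : i ∈ B := (le_sup_left : zpowers i ≤ B) (mem_zpowers i)
  have hzB : z ∈ B := by rw [← hi2]; exact pow_mem hiB 2
  have hic : i * c = c * i := mem_centralizer_iff.mp hcc i hi
  have hiY : zpowers i ≤ Y := zpowers_le.mpr hi
  have hcomm : ∀ a ∈ B, ∀ b ∈ B, a * b = b * a := by
    refine comm_of_sup (zpowers_comm i) (zpowers_comm c) ?_
    intro a ha b hb
    have hle : zpowers c ≤ centralizer (Y : Set G) := by rwa [zpowers_le]
    exact mem_centralizer_iff.mp (hle hb) a (hiY ha)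
  have h2 : IsPGroup 2 B := hT.to_le (hBle.trans (sup_le hYT (by rwa [zpowers_le])))
  have h8 : 8 ≤ Nat.card B := by
    have hlt : zpowers i < B := by
      refine lt_of_le_of_ne le_sup_left (fun he => hc ?_)
      have : c ∈ zpowers i := by rw [he]; exact hcB
      exact hiY this
    have := two_mul_le_of_lt hlt
    rw [Nat.card_zpowers, h.orderOf_eq hi hi1 hiz] at this
    omega
  have hcz : z ≠ c := by
    rintro rfl
    exact hc h.mem
  have hc1 : c ≠ 1 := by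
    rintro rfl
    exact hc (one_mem _)
  apply NCA.mono hBle
  rcases hcc2 with hcc2 | hcc2
  · exact nca_of_two_invol hcomm h2 h8 hzB hcB hzz hcc2 h.ne hc1 hcz
  · have hic2 : (i * c) ^ 2 = 1 := by
      rw [(show Commute i c from hic).mul_pow, hi2, hcc2, ← pow_two, hzz]
    have hic1 : i * c ≠ 1 := by
      intro he
      apply hc
      have : c = i⁻¹ := eq_inv_of_mul_eq_one_right he
      rw [this]
      exact Y.inv_mem hi
    have hicz : z ≠ i * c := by
      intro he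
      apply hc
      have : c = i⁻¹ * z := by rw [he]; group
      rw [this]
      exact Y.mul_mem (Y.inv_mem hi) h.mem
    exact nca_of_two_invol hcomm h2 h8 hzB (B.mul_mem hiB hcB) hzz hic2 h.ne hic1 hicz

theorem IsQ8.sq_le : Sq Y ≤ zpowers z := by
  rw [Sq, closure_le]
  rintro _ ⟨x, hx, rfl⟩
  by_cases h1 : x = 1
  · rw [h1, one_pow]; exact one_mem _
  by_cases h2 : x = z
  · rw [h2, h.sq]; exact one_mem _
  · rw [h.sq_eq x hx h1 h2]; exact mem_zpowers z

theorem IsQ8.mem_sq_iff {c : G} (hc : c ∈ Sq Y) : c = 1 ∨ c = z :=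
  mem_zpowers_of_sq h.sq (h.sq_le hc)

theorem IsQ8.z_mem_sq : z ∈ Sq Y := by
  obtain ⟨i, hi, hi1, hiz⟩ := h.exists_ne
  rw [← h.sq_eq i hi hi1 hiz]
  exact sq_mem hi

theorem IsQ8.not_comm : ∃ i ∈ Y, ∃ j ∈ Y, i * j ≠ j * i := by
  obtain ⟨i, hi, hi1, hiz⟩ := h.exists_ne
  obtain ⟨j, hj, hji⟩ := h.exists_not_zpowers hi
  refine ⟨i, hi, j, hj, fun he => hji ?_⟩
  exact h.mem_zpowers_of_comm hi hi1 hiz hj he.symm

theorem IsQ8.nonempty_equiv : Nonempty (QuaternionGroup 2 ≃* ↥Y) := by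
  obtain ⟨i, hi, hi1, hiz⟩ := h.exists_ne
  obtain ⟨j, hj, hji⟩ := h.exists_not_zpowers hi
  have hzz : z * z = 1 := by rw [← pow_two]; exact h.sq
  have hi2 : i ^ 2 = z := h.sq_eq i hi hi1 hiz
  have hj1 : j ≠ 1 := by
    rintro rfl
    exact hji (one_mem _)
  have hjz : j ≠ z := by
    rintro rfl
    apply hji
    rw [← hi2]
    exact pow_mem (mem_zpowers i) 2
  have hj2 : j ^ 2 = z := h.sq_eq j hj hj1 hjz
  have hji' : j * i = z * i * j := h.anticomm hi hi1 hiz hj hji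
  have hinv : i⁻¹ = i * z := by
    apply inv_eq_of_mul_eq_one_right
    rw [← mul_assoc, ← pow_two, hi2, hzz]
  refine Cfsg.Agent.Lib.PGroups.Presentations.nonempty_quaternion_equiv
    (a := (⟨i, hi⟩ : Y)) (y := ⟨j, hj⟩) (m := 2) ?_ ?_ ?_ ?_ ?_
  · rw [Subgroup.orderOf_mk, h.orderOf_eq hi hi1 hiz]
  · apply Subtype.ext
    show j ^ 2 = i ^ 2
    rw [hi2, hj2]
  · apply Subtype.ext
    show j * i * j⁻¹ = i⁻¹
    rw [hji', hinv, h.central i hi]
    group
  · rintro ⟨n, hn⟩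
    apply hji
    refine ⟨n, ?_⟩
    simpa using congrArg Subtype.val hn
  · rw [h.card]

end Q8

end Cfsg.Agent.Lib.NCA8.Q8
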