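import Cfsg.Agent.Lib.NCA8.StepB
import Cfsg.Agent.Lib.PermMod.MinNormal

/-!
# The Sylow 2-subgroup is normal
-/

set_option autoImplicit false

namespace Cfsg.Agent.Lib.NCA8.StepA

open Subgroup
open Cfsg.Agent.Lib.Coprime.Action Cfsg.Agent.Lib.NCA8.Basic Cfsg.Agent.Lib.NCA8.Act
  Cfsg.Agent.Lib.NCA8.Q8 Cfsg.Agent.Lib.NCA8.MinAct Cfsg.Agent.Lib.NCA8.StepB
open scoped commutatorElement

universe u

section Act

variable {G : Type u} [Group G] {N : Subgroup G}

/-- Conjugation action on the non-identity elements of a normal subgroup. -/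
noncomputable def actHom [hN : N.Normal] : G →* Equiv.Perm {n : N // n ≠ 1} :=
  MonoidHom.mk' (fun g => (MulAut.conjNormal g : N ≃* N).toEquiv.subtypeEquiv (fun n => by
    simp only [MulEquiv.toEquiv_eq_coe, MulEquiv.coe_toEquiv]
    exact (map_ne_one_iff (MulAut.conjNormal g : N ≃* N) (MulAut.conjNormal g : N ≃* N).injective).symm))
    (fun a b => by
      ext n
      simp [mul_assoc])

theorem actHom_apply [hN : N.Normal] (g : G) (n : {n : N // n ≠ 1}) :
    (((actHom g n : {n : N // n ≠ 1}) : N) : G) = g * ((n : N) : G) * g⁻¹ := by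
  simp [actHom]

theorem actHom_eq_one_iff [hN : N.Normal] (g : G) :
    (actHom g : Equiv.Perm {n : N // n ≠ 1}) = 1 ↔ g ∈ centralizer (N : Set G) := by
  constructor
  · intro h
    rw [mem_centralizer_iff]
    intro n hn
    by_cases hn1 : n = 1
    · simp [hn1]
    · have hne : (⟨n, hn⟩ : N) ≠ 1 := fun h2 => hn1 (congrArg Subtype.val h2)
      have h1 := actHom_apply g ⟨⟨n, hn⟩, hne⟩
      rw [h] at h1
      simp only [Equiv.Perm.coe_one, id_eq] at h1
      have h2 : n * g = g * n * g⁻¹ * g := by rw [← h1]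
      rw [h2]
      group
  · intro h
    ext n
    have h1 := actHom_apply g n
    rw [h1]
    have h2 := mem_centralizer_iff.mp h _ n.1.2
    simp only [Equiv.Perm.coe_one, id_eq]
    rw [← h2]
    group

theorem conjNormal_eq_one_iff [hN : N.Normal] (g : G) :
    (MulAut.conjNormal g : MulAut N) = 1 ↔ g ∈ centralizer (N : Set G) := by
  constructor
  · intro h
    rw [mem_centralizer_iff]
    intro n hn
    have h1 := MulAut.conjNormal_apply g (⟨n, hn⟩ : N)
    rw [h] at h1
    have h2 : n = g * n * g⁻¹ := h1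
    nth_rewrite 1 [h2]
    group
  · intro h
    ext n
    rw [MulAut.conjNormal_apply]
    have h2 := mem_centralizer_iff.mp h _ n.2
    show g * (n : G) * g⁻¹ = n
    rw [← h2]
    group

variable [Finite G]

/-- From a hom with kernel `C`: `|G|` divides `|C| |H|`. -/
theorem card_dvd_of_hom {H : Type*} [Group H] [Finite H] (φ : G →* H) {C : Subgroup G}
    (hker : φ.ker = C) : Nat.card G ∣ Nat.card C * Nat.card H := by
  have h1 := Subgroup.card_mul_index φ.ker
  rw [Subgroup.index_ker, hker] at h1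
  rw [← h1]
  exact mul_dvd_mul_left _ (Subgroup.card_subgroup_dvd_card _)

/-- A 2-power dividing `2^a * m` with `m` odd divides `2^a`. -/
theorem two_pow_dvd {n a m : ℕ} (hm : Odd m) (h : 2 ^ n ∣ 2 ^ a * m) : 2 ^ n ∣ 2 ^ a :=
  Nat.Coprime.dvd_of_dvd_mul_right (Nat.Coprime.pow_left n (Nat.coprime_two_left.mpr hm)) h

end Act

variable {S : Type u} [Group S] [Finite S]

theorem step_A {N X K A : Subgroup S} (hNn : N.Normal) (hN2 : IsPGroup 2 N) (hNX : N ≤ X)
    (hX2 : IsPGroup 2 X) (hcen : centralizer (N : Set S) ≤ N) (hodd : Odd (Nat.card K))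
    (hcard : Nat.card K * Nat.card X = Nat.card S)
    (hno : ∀ U : Subgroup S, IsPGroup 2 U → K ≤ normalizer (U : Set S) →
      Nat.card U < Nat.card X → ¬ NCA U)
    (hAX : A ≤ X) (hAc : IsMulCommutative A) (hAn : ¬ IsCyclic A) (hA8 : Nat.card A = 8)
    (hcore : ∀ U : Subgroup S, U.Normal → IsPGroup 2 U → U ≤ N) : N = X := by
  classical
  by_contra hne
  have hlt : N < X := lt_of_le_of_ne hNX hne
  have hcardlt : Nat.card N < Nat.card X := Cfsg.Agent.Lib.PGroups.Basic.card_lt_of_lt hlt
  have hnoN : ¬ NCA N := hno N hN2 (by rw [normalizer_eq_top_iff.mpr hNn]; exact le_top) hcardlt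
  have hKN : K ≤ normalizer (N : Set S) := by rw [normalizer_eq_top_iff.mpr hNn]; exact le_top
  have hact : OddAct N K := ⟨hN2, hodd, hKN⟩
  have hNKc : ¬ N ≤ centralizer (K : Set S) := by
    intro hc
    have h1 : K ≤ centralizer (N : Set S) := le_centralizer_iff.mp hc
    have h2 : K ≤ N := h1.trans hcen
    have h3 : Nat.card K ∣ Nat.card N := Subgroup.card_dvd_of_le h2
    have h4 : Nat.card K = 1 := by
      obtain ⟨a, ha⟩ := IsPGroup.iff_card.mp hN2
      rw [ha] at h3
      obtain ⟨b, -, hb⟩ := (Nat.dvd_prime_pow Nat.prime_two).mp h3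
      rcases Nat.eq_zero_or_pos b with rfl | hb0
      · simpa using hb
      · exfalso
        rw [hb] at hodd
        exact (Nat.not_even_iff_odd.mpr hodd) ((Nat.even_pow' (by omega)).mpr even_two)
    rw [h4, one_mul] at hcard
    have hXt : X = ⊤ := Subgroup.eq_top_of_card_eq _ hcard
    have : X ≤ N := hcore X (by rw [hXt]; infer_instance) hX2
    exact hlt.not_ge this
  have hm := isMinAct_of_not_nca hact hNKc hnoN
  haveI : N.Normal := hNn
  have hXdvd : Nat.card X ∣ Nat.card S := Subgroup.card_subgroup_dvd_card X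
  obtain ⟨n, hn⟩ := IsPGroup.iff_card.mp hX2
  have hle8 : 8 ≤ Nat.card X := by
    rw [← hA8]
    exact Subgroup.card_le_of_le hAX
  rcases hm.cases hnoN with hv | ⟨z, hq⟩
  · -- four-group
    have hCN : centralizer (N : Set S) = N := by
      refine le_antisymm hcen ?_
      intro x hx
      rw [mem_centralizer_iff]
      intro y hy
      exact hv.comm y hy x hx
    have hcard3 : Nat.card {n : N // n ≠ 1} = 3 := by
      letI := Fintype.ofFinite N
      rw [Nat.card_eq_fintype_card, Fintype.card_subtype_compl, Fintype.card_subtype_eq,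
        ← Nat.card_eq_fintype_card, hv.card]
    have hker : (actHom : S →* Equiv.Perm {n : N // n ≠ 1}).ker = centralizer (N : Set S) := by
      ext g
      exact actHom_eq_one_iff g
    have h1 := card_dvd_of_hom _ hker
    rw [Nat.card_perm, hcard3, hCN, hv.card] at h1
    have h2 : 2 ^ n ∣ 2 ^ 3 * 3 := by
      rw [← hn]
      exact hXdvd.trans (h1.trans (by norm_num))
    have h3 : 2 ^ n ∣ 2 ^ 3 := two_pow_dvd (by decide) h2
    have h4 : Nat.card X ≤ 8 := by
      rw [hn]
      exact Nat.le_of_dvd (by norm_num) h3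
    have hAXe : A = X := Subgroup.eq_of_le_of_card_ge hAX (by omega)
    apply hlt.not_ge
    intro x hx
    apply hcen
    rw [mem_centralizer_iff]
    intro y hy
    have hxA : x ∈ A := hAXe ▸ hx
    have hyA : y ∈ A := hAXe ▸ hNX hy
    exact congrArg Subtype.val (hAc.is_comm.comm (⟨y, hyA⟩ : A) ⟨x, hxA⟩)
  · -- quaternion group
    have hCz : centralizer (N : Set S) ≤ zpowers z := by
      intro c hc
      have hcN : c ∈ N := hcen hc
      rcases hq.central_eq hcN (fun y hy => mem_centralizer_iff.mp hc y hy) with h1 | h1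
      · rw [h1]; exact one_mem _
      · rw [h1]; exact mem_zpowers z
    have hCd : Nat.card (centralizer (N : Set S)) ∣ 2 := by
      have := Subgroup.card_dvd_of_le hCz
      rwa [Nat.card_zpowers, orderOf_eq_prime hq.sq hq.ne] at this
    obtain ⟨e⟩ := hq.nonempty_equiv
    have hker : (MulAut.conjNormal : S →* MulAut N).ker = centralizer (N : Set S) := by
      ext g
      exact conjNormal_eq_one_iff g
    have h1 := card_dvd_of_hom _ hker
    have hcardAut : Nat.card (MulAut N) ∣ 24 := by
      rw [← Nat.card_congr (MulAut.congr e).toEquiv]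
      exact Cfsg.Agent.Lib.PermMod.MinNormal.card_mulAut_quaternion_dvd
    have h2 : 2 ^ n ∣ 2 ^ 4 * 3 := by
      rw [← hn]
      exact hXdvd.trans (h1.trans (by
        have := Nat.mul_dvd_mul hCd hcardAut
        exact this.trans (by norm_num)))
    have h3 : 2 ^ n ∣ 2 ^ 4 := two_pow_dvd (by decide) h2
    have h4 : Nat.card X ≤ 16 := by
      rw [hn]
      exact Nat.le_of_dvd (by norm_num) h3
    -- the intersection of `A` and `N` is large
    have hAN : A ≤ normalizer (N : Set S) := by rw [normalizer_eq_top_iff.mpr hNn]; exact le_top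
    have hsup := Cfsg.Agent.Lib.QuadAct.Basic.card_sup_mul_card_inf_of_le_normalizer A N hAN
    have hsupX : Nat.card (A ⊔ N : Subgroup S) ≤ 16 :=
      (Subgroup.card_le_of_le (sup_le hAX hNX)).trans h4
    rw [hA8, hq.card] at hsup
    have hinf4 : 4 ≤ Nat.card (A ⊓ N : Subgroup S) := by
      by_contra hlt4
      push Not at hlt4
      have : Nat.card (A ⊔ N : Subgroup S) * Nat.card (A ⊓ N : Subgroup S) ≤ 16 * 3 :=
        Nat.mul_le_mul hsupX (by omega)
      omega
    obtain ⟨i, hi, hiz⟩ := exists_not_mem_of_card_lt (H := zpowers z) (Y := A ⊓ N)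
      (by rw [Nat.card_zpowers, orderOf_eq_prime hq.sq hq.ne]; omega)
    have hiA : i ∈ A := hi.1
    have hiN : i ∈ N := hi.2
    have hi1 : i ≠ 1 := by
      rintro rfl
      exact hiz (one_mem _)
    have hiz' : i ≠ z := by
      rintro rfl
      exact hiz (mem_zpowers _)
    have hi2 : i ^ 2 = z := hq.sq_eq i hiN hi1 hiz'
    have hAcomm : ∀ x ∈ A, ∀ y ∈ A, x * y = y * x := fun x hx y hy =>
      congrArg Subtype.val (hAc.is_comm.comm (⟨x, hx⟩ : A) ⟨y, hy⟩)
    obtain ⟨s, hs, hsN⟩ : ∃ s ∈ A, s ∉ N := by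
      by_contra hall
      push Not at hall
      have hAN' : A ≤ N := hall
      have : A = N := Subgroup.eq_of_le_of_card_ge hAN' (by rw [hA8, hq.card])
      obtain ⟨a, ha, b, hb, hab⟩ := hq.not_comm
      exact hab (hAcomm a (this ▸ ha) b (this ▸ hb))
    obtain ⟨m, hm1, hm2⟩ := exists_pow_not_mem_sq_mem (Y := A) (hX2.to_le hAX) hs hsN
    obtain ⟨s', hs'A, hm1, hm2⟩ : ∃ s' ∈ A, s' ∉ N ∧ s' ^ 2 ∈ N :=
      ⟨s ^ m, A.pow_mem hs m, hm1, hm2⟩
    -- an involution of `A` outside `N`
    obtain ⟨t, htA, htN, ht2⟩ : ∃ t ∈ A, t ∉ N ∧ t ^ 2 = 1 := by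
      by_cases h21 : s' ^ 2 = 1
      · exact ⟨s', hs'A, hm1, h21⟩
      by_cases h2z : s' ^ 2 = z
      · refine ⟨s' * i, A.mul_mem hs'A hiA, ?_, ?_⟩
        · intro hm3
          apply hm1
          have e1 : s' = (s' * i) * i⁻¹ := by group
          rw [e1]
          exact N.mul_mem hm3 (N.inv_mem hiN)
        · rw [(show Commute s' i from hAcomm _ hs'A _ hiA).mul_pow, h2z, hi2, ← pow_two, hq.sq]
      · exfalso
        have h5 : (s' ^ 2) ^ 2 = z := hq.sq_eq _ hm2 h21 h2z
        have h6 : orderOf (⟨s', hs'A⟩ : A) = 8 := by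
          rw [Subgroup.orderOf_mk]
          have := orderOf_eq_prime_pow (x := s') (p := 2) (n := 2)
            (by
              have e1 : s' ^ 2 ^ 2 = (s' ^ 2) ^ 2 := by rw [← pow_mul]; norm_num
              rw [e1, h5]
              exact hq.ne) (by
              have e1 : s' ^ 2 ^ (2 + 1) = ((s' ^ 2) ^ 2) ^ 2 := by
                rw [← pow_mul, ← pow_mul]; norm_num
              rw [e1, h5, hq.sq])
          simpa using this
        exact hAn (isCyclic_of_orderOf_eq_card _ (by rw [h6, hA8]))
    have htX : t ∈ X := hAX htA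
    have hti : t * i = i * t := hAcomm t htA i hiA
    obtain ⟨j, hj, hji⟩ := hq.exists_not_zpowers hiN
    have htNN : t ∈ normalizer (N : Set S) := by rw [normalizer_eq_top_iff.mpr hNn]; trivial
    set j' : S := t * j * t⁻¹ with hj'
    have hj'N : j' ∈ N := hNn.conj_mem j hj t
    have hzz : z * z = 1 := by rw [← pow_two]; exact hq.sq
    have htz : t * z = z * t := by
      rw [← hi2, pow_two]
      calc t * (i * i) = (t * i) * i := by group
        _ = (i * t) * i := by rw [hti]
        _ = i * (t * i) := by group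
        _ = i * (i * t) := by rw [hti]
        _ = i * i * t := by group
    have hjit : j * i = z * i * j := hq.anticomm hiN hi1 hiz' hj hji
    have hj'i : j' * i = z * i * j' := by
      calc j' * i = t * j * t⁻¹ * i := rfl
        _ = t * j * (t⁻¹ * i * t) * t⁻¹ := by group
        _ = t * j * i * t⁻¹ := by
          have : t⁻¹ * i * t = i := by
            rw [mul_assoc, ← hti]; group
          rw [this]
        _ = t * (j * i) * t⁻¹ := by group
        _ = t * (z * i * j) * t⁻¹ := by rw [hjit]
        _ = (t * z) * i * j * t⁻¹ := by group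
        _ = z * (t * i) * j * t⁻¹ := by rw [htz]; group
        _ = z * i * (t * j * t⁻¹) := by rw [hti]; group
    set w : S := j⁻¹ * j' with hw
    have hwN : w ∈ N := N.mul_mem (N.inv_mem hj) hj'N
    have hjinv : j⁻¹ * i = z * i * j⁻¹ := by
      have hzj : z * j = j * z := hq.central j hj
      calc j⁻¹ * i = j⁻¹ * (i * j) * j⁻¹ := by group
        _ = j⁻¹ * ((z * z) * (i * j)) * j⁻¹ := by rw [hzz, one_mul]
        _ = j⁻¹ * (z * (z * i * j)) * j⁻¹ := by group
        _ = j⁻¹ * (z * (j * i)) * j⁻¹ := by rw [hjit]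
        _ = j⁻¹ * ((z * j) * i) * j⁻¹ := by group
        _ = j⁻¹ * ((j * z) * i) * j⁻¹ := by rw [hzj]
        _ = z * i * j⁻¹ := by group
    have hwi : w * i = i * w := by
      have hzi : z * i = i * z := hq.central i hiN
      calc w * i = j⁻¹ * (j' * i) := by rw [hw]; group
        _ = j⁻¹ * (z * i * j') := by rw [hj'i]
        _ = j⁻¹ * (i * z * j') := by rw [hzi]
        _ = (j⁻¹ * i) * z * j' := by group
        _ = z * i * j⁻¹ * z * j' := by rw [hjinv]
        _ = z * i * (j⁻¹ * z) * j' := by group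
        _ = z * i * (z * j⁻¹) * j' := by
          have : j⁻¹ * z = z * j⁻¹ := by
            rw [eq_mul_inv_iff_mul_eq, mul_assoc, hq.central j hj]; group
          rw [this]
        _ = (z * i) * z * (j⁻¹ * j') := by group
        _ = (i * z) * z * (j⁻¹ * j') := by rw [hzi]
        _ = i * (z * z) * w := by rw [hw]; group
        _ = i * w := by rw [hzz, mul_one]
    have hwz : w ∈ zpowers i := hq.mem_zpowers_of_comm hiN hi1 hiz' hwN hwi
    have htw : t * w * t⁻¹ = w := by
      have hc : Commute t w := by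
        obtain ⟨r, hr⟩ := hwz
        rw [← hr]
        exact (show Commute t i from hti).zpow_right r
      rw [hc.eq]; group
    have htt : t * t = 1 := by rw [← pow_two]; exact ht2
    have htinv : t⁻¹ = t := by
      rw [inv_eq_iff_mul_eq_one]; exact htt
    have hwinv : t * w * t⁻¹ = w⁻¹ := by
      calc t * w * t⁻¹ = (t * j⁻¹ * t⁻¹) * (t * j' * t⁻¹) := by rw [hw]; group
        _ = j'⁻¹ * (t * (t * j * t⁻¹) * t⁻¹) := by rw [hj']; group
        _ = j'⁻¹ * ((t * t) * j * (t * t)⁻¹) := by group
        _ = j'⁻¹ * j := by rw [htt]; group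
        _ = w⁻¹ := by rw [hw]; group
    have hw2 : w ^ 2 = 1 := by
      rw [pow_two]
      have h5 : w = w⁻¹ := htw.symm.trans hwinv
      nth_rewrite 1 [h5]
      group
    have hw12 : w = 1 ∨ w = z := by
      by_contra hcon
      push Not at hcon
      have := hq.sq_eq w hwN hcon.1 hcon.2
      rw [hw2] at this
      exact hq.ne this.symm
    have hjact : t * j * t⁻¹ = j ∨ t * j * t⁻¹ = z * j := by
      have e1 : t * j * t⁻¹ = j * w := by rw [hw, mul_inv_cancel_left]
      rcases hw12 with h5 | h5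
      · left; rw [e1, h5, mul_one]
      · right; rw [e1, h5]; exact (hq.central j hj).symm
    have hiact : t * i * t⁻¹ = i ∨ t * i * t⁻¹ = z * i := by
      left; rw [hti]; group
    obtain ⟨e, he, hec⟩ := hq.exists_inner hiN hi1 hiz' hj hji hiact hjact
    apply htN
    have e1 : t = e * (e⁻¹ * t) := by group
    rw [e1]
    exact N.mul_mem he (hcen hec)

end Cfsg.Agent.Lib.NCA8.StepA
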