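import Cfsg.Agent.Lib.NCA8.MinAct

/-!
# The structure of the normal Sylow 2-subgroup
-/

set_option autoImplicit false

namespace Cfsg.Agent.Lib.NCA8.StepB

open Subgroup
open Cfsg.Agent.Lib.Coprime.Action Cfsg.Agent.Lib.NCA8.Basic Cfsg.Agent.Lib.NCA8.Act
  Cfsg.Agent.Lib.NCA8.Q8 Cfsg.Agent.Lib.NCA8.MinAct
open scoped commutatorElement

universe u

variable {G : Type u} [Group G]

theorem le_normalizer_sup {T A B : Subgroup G} (hA : T ≤ normalizer (A : Set G))
    (hB : T ≤ normalizer (B : Set G)) : T ≤ normalizer ((A ⊔ B : Subgroup G) : Set G) := by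
  rw [le_normalizer_iff]
  intro t ht g hg
  have hle : A ⊔ B ≤ (A ⊔ B).comap (MulAut.conj t).toMonoidHom := by
    refine sup_le ?_ ?_
    · intro a ha
      show t * a * t⁻¹ ∈ A ⊔ B
      exact (le_sup_left : A ≤ A ⊔ B) (conj_mem_of_le_normalizer hA ht ha)
    · intro a ha
      show t * a * t⁻¹ ∈ A ⊔ B
      exact (le_sup_right : B ≤ A ⊔ B) (conj_mem_of_le_normalizer hB ht ha)
  exact hle hg

theorem le_normalizer_zpowers_of_fixed {K : Subgroup G} {t : G}
    (ht : t ∈ centralizer (K : Set G)) : K ≤ normalizer ((zpowers t : Subgroup G) : Set G) := by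
  rw [le_normalizer_iff]
  intro k hk g hg
  have hle : zpowers t ≤ centralizer (K : Set G) := by rwa [zpowers_le]
  have h1 := mem_centralizer_iff.mp (hle hg) k hk
  rw [h1]
  simpa using hg

theorem mem_normalizer_of_mem_centralizer {U : Subgroup G} {c : G}
    (hc : c ∈ centralizer (U : Set G)) : c ∈ normalizer (U : Set G) := by
  rw [mem_normalizer_iff]
  intro g
  constructor
  · intro hg
    have h1 := mem_centralizer_iff.mp hc g hg
    have e : c * g * c⁻¹ = g := by rw [← h1]; group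
    rwa [e]
  · intro hg
    have h1 := mem_centralizer_iff.mp hc _ hg
    have e : g = c * g * c⁻¹ := by
      have h2 : c * g * c⁻¹ * c = c * (c * g * c⁻¹) := h1
      have h3 : c * g = c * (c * g * c⁻¹) := by rw [← h2]; group
      exact mul_left_cancel h3
    rwa [e]

variable [Finite G]

theorem IsQ8.conj_of_comm {Y : Subgroup G} {z : G} (hq : IsQ8 Y z) {t w : G}
    (hc : ⁅w, t⁆ = 1 ∨ ⁅w, t⁆ = z) : t * w * t⁻¹ = w ∨ t * w * t⁻¹ = z * w := by
  have hzz : z * z = 1 := by rw [← pow_two]; exact hq.sq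
  rcases hc with h1 | h1
  · left
    have := commutatorElement_eq_one_iff_mul_comm.mp h1
    rw [← this]; group
  · right
    rw [commutatorElement_def] at h1
    have hz' : z⁻¹ = z := by
      rw [inv_eq_iff_mul_eq_one]; exact hzz
    calc t * w * t⁻¹ = (w * t * w⁻¹ * t⁻¹)⁻¹ * w := by group
      _ = z * w := by rw [h1, hz']

/-- The squares of `P` cannot form a `Q₈` acted on innerly by `P`. -/
theorem sq_not_q8 {P : Subgroup G} {z : G} (hq : IsQ8 (Sq P) z) (hL : ⁅Sq P, P⁆ ≤ Sq (Sq P)) :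
    False := by
  set F : Subgroup G := Sq P with hF
  set D : Subgroup G := P ⊓ centralizer (F : Set G) with hD
  have hFP : F ≤ P := sq_le P
  have hzD : z ∈ D := by
    refine ⟨hFP hq.mem, ?_⟩
    show z ∈ centralizer (F : Set G)
    rw [mem_centralizer_iff]
    intro f hf
    exact (hq.central f hf).symm
  have hact : ∀ x ∈ P, ∀ w ∈ F, x * w * x⁻¹ = w ∨ x * w * x⁻¹ = z * w := by
    intro x hx w hw
    exact IsQ8.conj_of_comm hq (hq.mem_sq_iff (hL (commutator_mem_commutator hw hx)))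
  have hsq : ∀ x ∈ P, x ^ 2 ∈ D := by
    intro x hx
    obtain ⟨i, hi, hi1, hiz⟩ := hq.exists_ne
    obtain ⟨j, hj, hji⟩ := hq.exists_not_zpowers hi
    obtain ⟨e, he, hec⟩ := hq.exists_inner hi hi1 hiz hj hji (hact x hx i hi) (hact x hx j hj)
    have hcP : e⁻¹ * x ∈ P := P.mul_mem (P.inv_mem (hFP he)) hx
    have hcD : e⁻¹ * x ∈ D := ⟨hcP, hec⟩
    have hcomm : Commute e (e⁻¹ * x) := mem_centralizer_iff.mp hec e he
    have e1 : x = e * (e⁻¹ * x) := by group
    rw [e1, hcomm.mul_pow]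
    refine D.mul_mem ?_ (D.pow_mem hcD 2)
    by_cases h1 : e = 1
    · rw [h1, one_pow]; exact D.one_mem
    by_cases h2 : e = z
    · rw [h2, hq.sq]; exact D.one_mem
    · rw [hq.sq_eq e he h1 h2]; exact hzD
  have hFD : F ≤ D := by
    rw [hF, Sq, closure_le]
    rintro _ ⟨x, hx, rfl⟩
    exact hsq x hx
  obtain ⟨i, hi, j, hj, hij⟩ := hq.not_comm
  apply hij
  exact (mem_centralizer_iff.mp (hFD hj).2 i hi).symm ▸ rfl

/-- The case `⊥ < [P,K] < P`. -/
theorem step_C2 {P K : Subgroup G} (h : OddAct P K) (hK : ⁅P, K⁆ ≠ ⊥) (hlt : ⁅P, K⁆ ≠ P)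
    (hno : ∀ U ≤ P, K ≤ normalizer (U : Set G) → U ≠ P → ¬ NCA U)
    (hnab : ∃ x ∈ P, ∃ y ∈ P, x * y ≠ y * x) :
    ∃ (Y : Subgroup G) (z : G), IsQ8 Y z ∧ Y ≤ P ∧ Y.relIndex P = 2 ∧
      Y ⊔ (P ⊓ centralizer (Y : Set G)) = P := by
  set Y : Subgroup G := ⁅P, K⁆ with hY
  have hYP : Y ≤ P := commutator_le_of_le_normalizer h.norm
  have hKY : K ≤ normalizer (Y : Set G) := le_normalizer_commutator_right P K
  have hPY : P ≤ normalizer (Y : Set G) := le_normalizer_commutator_left P K
  have hYY : ⁅Y, K⁆ = Y := commutator_commutator_eq h.norm h.cop h.solv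
  have hactY : OddAct Y K := h.mono hYP hKY
  have hYc : ¬ Y ≤ centralizer (K : Set G) := by
    intro hc
    apply hK
    rw [← hYY]
    exact commutator_eq_bot_iff_le_centralizer.mpr hc
  have hnoY := hno Y hYP hKY hlt
  have hm : IsMinAct Y K := isMinAct_of_not_nca hactY hYc hnoY
  set W : Subgroup G := P ⊓ centralizer (K : Set G) with hW
  have hsup : Y ⊔ W = P := commutator_sup_fixed h.norm h.cop h.solv
  have hL : ⁅Y, P⁆ ≤ centralizer (K : Set G) :=
    hm.min _ (commutator_le_of_le_normalizer hPY) (comm_ne_self h.two hYP hm.ne)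
      (le_normalizer_commutator_of_le hKY h.norm)
  have hWC : W ≤ centralizer (Y : Set G) := by
    have h1 : ⁅⁅K, W⁆, Y⁆ = ⊥ := by
      have : ⁅K, W⁆ = ⊥ := by
        rw [commutator_comm]
        exact commutator_eq_bot_iff_le_centralizer.mpr inf_le_right
      rw [this]
      exact commutator_bot_left Y
    have h2 : ⁅⁅W, Y⁆, K⁆ = ⊥ := by
      rw [commutator_eq_bot_iff_le_centralizer]
      refine le_trans ?_ hL
      rw [commutator_comm]
      exact commutator_mono le_rfl inf_le_left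
    have h3 := Subgroup.commutator_commutator_eq_bot_of_rotate h1 h2
    rw [hYY, commutator_eq_bot_iff_le_centralizer] at h3
    exact le_centralizer_iff.mp h3
  obtain ⟨t, ht, htY⟩ : ∃ t ∈ W, t ∉ Y := by
    by_contra hall
    push Not at hall
    apply hlt
    rw [← sup_eq_left.mpr (show W ≤ Y from hall)]
    exact hsup
  have htP : t ∈ P := ht.1
  rcases hm.cases hnoY with hv | ⟨z, hq⟩
  · exfalso
    have hn := hv.nca h.two hYP htP htY (hWC ht)
    have hEP : Y ⊔ zpowers t ≤ P := sup_le hYP (by rwa [zpowers_le])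
    have hKE := le_normalizer_sup hKY (le_normalizer_zpowers_of_fixed ht.2)
    have hE : Y ⊔ zpowers t = P := by
      by_contra hne
      exact hno _ hEP hKE hne hn
    obtain ⟨x, hx, y, hy, hxy⟩ := hnab
    apply hxy
    rw [← hE] at hx hy
    refine comm_of_sup hv.comm (zpowers_comm t) ?_ x hx y hy
    intro a ha b hb
    have hle : zpowers t ≤ centralizer (Y : Set G) := by
      rw [zpowers_le]; exact hWC ht
    exact mem_centralizer_iff.mp (hle hb) a ha
  · refine ⟨Y, z, hq, hYP, ?_, ?_⟩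
    · obtain ⟨m, hm1, hm2⟩ := exists_pow_not_mem_sq_mem h.two htP htY
      have hcW : t ^ m ∈ W := W.pow_mem ht m
      have hn := hq.nca h.two hYP hcW.1 hm1 (hWC hcW) hm2
      have hEP : Y ⊔ zpowers (t ^ m) ≤ P := sup_le hYP (by rw [zpowers_le]; exact hcW.1)
      have hKE := le_normalizer_sup hKY (le_normalizer_zpowers_of_fixed hcW.2)
      have hE : Y ⊔ zpowers (t ^ m) = P := by
        by_contra hne
        exact hno _ hEP hKE hne hn
      have h2 := card_sup_zpowers_eq (mem_normalizer_of_mem_centralizer (hWC hcW)) hm1 hm2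
      rw [sup_comm, hE, card_eq_card_mul_relIndex hYP] at h2
      have hpos : 0 < Nat.card Y := Nat.card_pos
      have : Nat.card Y * Y.relIndex P = Nat.card Y * 2 := by rw [h2]; ring
      exact Nat.eq_of_mul_eq_mul_left hpos this
    · refine le_antisymm (sup_le hYP inf_le_left) ?_
      nth_rewrite 1 [← hsup]
      exact sup_le_sup_left (le_inf inf_le_left hWC) Y

/-- The case `[P,K] = P`. -/
theorem step_C3 {P K : Subgroup G} (h : OddAct P K) (hc : ⁅P, K⁆ = P)
    (hno : ∀ U ≤ P, K ≤ normalizer (U : Set G) → U ≠ P → ¬ NCA U)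
    (hnab : ∃ x ∈ P, ∃ y ∈ P, x * y ≠ y * x) :
    Sq P = P ⊓ centralizer (P : Set G) ∧ Sq P = ⁅P, P⁆ ∧
      (Nat.card (Sq P) = 2 ∨ Nat.card (Sq P) = 4) := by
  obtain ⟨a, ha, b, hb, hab⟩ := hnab
  have hP1 : P ≠ ⊥ := by
    rintro rfl
    rw [mem_bot] at ha hb
    rw [ha, hb] at hab
    exact hab rfl
  set F : Subgroup G := Sq P with hF
  have hFP : F ≤ P := sq_le P
  have hFne : F ≠ P := sq_ne_self h.two hP1
  have hKF : K ≤ normalizer (F : Set G) := le_normalizer_sq h.norm
  have hnoF := hno F hFP hKF hFne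
  have hPF : P ≤ normalizer (F : Set G) := self_le_normalizer_sq P
  have hcen : F ≤ centralizer (P : Set G) := by
    by_cases hFc : F ≤ centralizer (K : Set G)
    · exact le_centralizer_of_fixed hc hFc hPF
    · have hactF : OddAct F K := h.mono hFP hKF
      have hmF := isMinAct_of_not_nca hactF hFc hnoF
      have hLF : ⁅F, P⁆ ≤ F := commutator_le_of_le_normalizer hPF
      have hLne : ⁅F, P⁆ ≠ F := comm_ne_self h.two hFP hmF.ne
      have hKL := le_normalizer_commutator_of_le hKF h.norm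
      have hLc := hmF.min _ hLF hLne hKL
      have hLsq : ⁅F, P⁆ ≤ Sq F := fun c hc' =>
        fixed_le_sq hactF hmF.comm (hLF hc') (hLc hc')
      rcases hmF.cases hnoF with hv | ⟨z, hq⟩
      · rw [hv.sq_eq_bot, le_bot_iff, commutator_eq_bot_iff_le_centralizer] at hLsq
        exact hLsq
      · exact (sq_not_q8 hq hLsq).elim
  set Z : Subgroup G := P ⊓ centralizer (P : Set G) with hZ
  have hFZ : F ≤ Z := le_inf hFP hcen
  have hZne : Z ≠ P := by
    intro he
    apply hab
    have : a ∈ Z := he ▸ ha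
    exact (mem_centralizer_iff.mp this.2 b hb).symm ▸ rfl
  have hKZ : K ≤ normalizer (Z : Set G) := le_normalizer_inf h.norm (le_normalizer_centralizer h.norm)
  have hZP : Z ≤ P := inf_le_left
  have hnoZ := hno Z hZP hKZ hZne
  have hPPF : ⁅P, P⁆ ≤ F := commutator_le_sq P
  have hne_bot : ∀ L : Subgroup G, ⁅P, P⁆ ≤ L → L ≠ ⊥ := by
    rintro L hL rfl
    have := hL (commutator_mem_commutator ha hb)
    rw [mem_bot] at this
    exact hab (commutatorElement_eq_one_iff_mul_comm.mp this)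
  have hmain : F = Z ∧ F = ⁅P, P⁆ := by
    by_cases hZc : Z ≤ centralizer (K : Set G)
    · have h1 : Z ≤ F := fun c hc' => fixed_le_sq h hc hc'.1 (hZc hc')
      refine ⟨le_antisymm hFZ h1, le_antisymm ?_ hPPF⟩
      exact sq_le_derived h.norm hc (hFZ.trans hZc)
    · have hactZ : OddAct Z K := h.mono hZP hKZ
      have hmZ := isMinAct_of_not_nca hactZ hZc hnoZ
      have hZcomm : ∀ x ∈ Z, ∀ y ∈ Z, x * y = y * x := fun x hx y hy =>
        (mem_centralizer_iff.mp hy.2 x hx.1)
      rcases hmZ.cases hnoZ with hv | ⟨z, hq⟩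
      · have hsq0 : ∀ L ≤ Z, K ≤ normalizer (L : Set G) → L ≠ Z → L = ⊥ := by
          intro L hL hKL hLne
          have hLc := hmZ.min L hL hLne hKL
          rw [eq_bot_iff]
          intro c hc'
          have := fixed_le_sq hactZ hmZ.comm (hL hc') (hLc hc')
          rwa [hv.sq_eq_bot] at this
        have h1 : F = Z := by
          by_contra hne
          exact hne_bot F hPPF (hsq0 F hFZ hKF hne)
        refine ⟨h1, ?_⟩
        by_contra hne
        have hPPZ : ⁅P, P⁆ ≤ Z := hPPF.trans hFZ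
        have hne' : ⁅P, P⁆ ≠ Z := fun he => hne (h1.trans he.symm)
        exact hne_bot _ le_rfl (hsq0 _ hPPZ (le_normalizer_commutator_of_le h.norm h.norm) hne')
      · exfalso
        obtain ⟨i, hi, j, hj, hij⟩ := hq.not_comm
        exact hij (hZcomm i hi j hj)
  obtain ⟨hFZeq, hFD⟩ := hmain
  refine ⟨hFZeq, hFD, ?_⟩
  have hexp : ∀ c ∈ F, c ^ 2 = 1 := by
    intro c hc'
    apply derived_sq_eq_one hcen
    rwa [← hFD]
  have hFcomm : ∀ x ∈ F, ∀ y ∈ F, x * y = y * x := fun x hx y hy =>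
    mem_centralizer_iff.mp (hcen hy) x (hFP hx)
  obtain ⟨n, hn2⟩ := IsPGroup.iff_card.mp (h.two.to_le hFP)
  have hn3 : n < 3 := by
    by_contra hge
    push Not at hge
    have h8 : 8 ≤ Nat.card F := by
      rw [hn2]
      calc 8 = 2 ^ 3 := by norm_num
        _ ≤ 2 ^ n := Nat.pow_le_pow_right (by norm_num) hge
    obtain ⟨u, hu, v, hv, hu1, hv1, huv⟩ := exists_two_of_card (by omega) hexp
    exact hnoF (nca_of_two_invol hFcomm (h.two.to_le hFP) h8 hu hv (hexp u hu) (hexp v hv) hu1 hv1 huv)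
  interval_cases n
  · exfalso
    exact hne_bot F hPPF ((Subgroup.card_eq_one).mp (by simpa using hn2))
  · left; simpa using hn2
  · right; simpa using hn2

end Cfsg.Agent.Lib.NCA8.StepB
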